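import Cfsg.Agent.Lib.SuzukiModule.Trilinear

/-!
Equivariant biadditive maps between elementary modules without fixed points vanish.
-/

set_option autoImplicit false
set_option linter.unusedSectionVars false

namespace CfsgLib.Suzuki

open scoped TensorProduct

universe u

namespace Hyp

variable {F : Type*} [Field F] {m : ℕ} (h : Hyp F m)
include h

/-- Scalar extension of a representation over the prime field keeps the five-term identity. -/
theorem five_baseChange [Algebra (ZMod 2) F] {A : Type u} [AddCommGroup A] [Module (ZMod 2) A]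
    {a : Cfsg.Sz F m →* Module.End (ZMod 2) A} (h5 : h.Five fun g x => a g x)
    {ρ : Representation F (Cfsg.Sz F m) (F ⊗[ZMod 2] A)} (hρ : ∀ g, ρ g = (a g).baseChange F) :
    h.Five fun g x => ρ g x := fun x => by
  induction x with
  | zero => simp
  | tmul c y =>
    simp only [hρ, LinearMap.baseChange_tmul, ← TensorProduct.tmul_add]
    rw [h5 y, TensorProduct.tmul_zero]
  | add x y hx hy =>
    simp only [map_add]
    linear_combination (norm := module) hx + hy

/-- Equivariant bilinear maps vanish. -/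
theorem bilinear_zero {A W : Type u} [AddCommGroup A] [Module (ZMod 2) A] [Finite A]
    [AddCommGroup W] [Module (ZMod 2) W] [Finite W] (a : Cfsg.Sz F m →* Module.End (ZMod 2) A)
    (b : Cfsg.Sz F m →* Module.End (ZMod 2) W) (h5a : h.Five fun g x => a g x)
    (h5b : h.Five fun g x => b g x) (β : A →ₗ[ZMod 2] A →ₗ[ZMod 2] W)
    (hβ : ∀ g x y, β (a g x) (a g y) = b g (β x y)) : β = 0 := by
  classical
  have := h.finite
  have := h.charP
  letI : Algebra (ZMod 2) F := ZMod.algebra F 2
  let ρA : Representation F (Cfsg.Sz F m) (F ⊗[ZMod 2] A) :=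
    { toFun := fun g => (a g).baseChange F
      map_one' := by simp
      map_mul' := fun g g' => by rw [map_mul]; exact LinearMap.baseChange_comp _ _ }
  let ρW : Representation F (Cfsg.Sz F m) (F ⊗[ZMod 2] W) :=
    { toFun := fun g => (b g).baseChange F
      map_one' := by simp
      map_mul' := fun g g' => by rw [map_mul]; exact LinearMap.baseChange_comp _ _ }
  haveI : Finite (F ⊗[ZMod 2] A) := by
    have := Module.Finite.of_finite (R := ZMod 2) (M := A)
    exact Module.finite_of_finite F
  haveI : Finite (F ⊗[ZMod 2] W) := by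
    have := Module.Finite.of_finite (R := ZMod 2) (M := W)
    exact Module.finite_of_finite F
  haveI : Finite (Module.Dual F (F ⊗[ZMod 2] W)) := Module.finite_of_finite F
  let L : A →ₗ[ZMod 2] ((F ⊗[ZMod 2] A) →ₗ[F] (F ⊗[ZMod 2] W)) :=
    (LinearMap.baseChangeHom (ZMod 2) F A W).comp β
  let βF : (F ⊗[ZMod 2] A) →ₗ[F] (F ⊗[ZMod 2] A) →ₗ[F] (F ⊗[ZMod 2] W) :=
    TensorProduct.AlgebraTensorModule.lift (LinearMap.toSpanSingleton F _ L)
  have hβF : ∀ c x d y, βF (c ⊗ₜ x) (d ⊗ₜ y) = (c * d) ⊗ₜ β x y := fun c x d y => by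
    simp [βF, L, LinearMap.baseChange_tmul, TensorProduct.smul_tmul']
  have hinv : ∀ g x y, βF (ρA g x) (ρA g y) = ρW g (βF x y) := fun g x y => by
    induction x with
    | zero => simp
    | add x x' hx hx' => simp [map_add, hx, hx']
    | tmul c x =>
      induction y with
      | zero => simp
      | add y y' hy hy' => simp [map_add, hy, hy']
      | tmul d y =>
        show βF ((a g).baseChange F (c ⊗ₜ x)) ((a g).baseChange F (d ⊗ₜ y)) =
          (b g).baseChange F (βF (c ⊗ₜ x) (d ⊗ₜ y))
        simp [LinearMap.baseChange_tmul, hβF, hβ]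
  have h5A : h.Five fun g x => ρA g x := h.five_baseChange h5a fun g => rfl
  have h5W : h.Five fun g x => ρW g x := h.five_baseChange h5b fun g => rfl
  have hT := h.tri_zero _ (F ⊗[ZMod 2] A) (F ⊗[ZMod 2] A) (Module.Dual F (F ⊗[ZMod 2] W)) ρA ρA ρW.dual
    h5A h5A (h.five_dual h5W) le_rfl (βF.compr₂ (Module.Dual.eval F _)) (fun g x y f => by
      show ρW.dual g f (βF (ρA g x) (ρA g y)) = f (βF x y)
      rw [hinv, Representation.dual_apply]
      show f (ρW g⁻¹ (ρW g _)) = _
      rw [h.comp_apply, inv_mul_cancel, map_one, Module.End.one_apply])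
  refine LinearMap.ext fun x => LinearMap.ext fun y => ?_
  have e : βF (1 ⊗ₜ x) (1 ⊗ₜ y) = 0 := (Module.forall_dual_apply_eq_zero_iff F _).1 fun f =>
    LinearMap.congr_fun (LinearMap.congr_fun (LinearMap.congr_fun hT (1 ⊗ₜ x)) (1 ⊗ₜ y)) f
  rw [hβF, one_mul] at e
  obtain ⟨ℓ, hℓ⟩ := (LinearMap.toSpanSingleton (ZMod 2) F 1).exists_leftInverse_of_injective
    (LinearMap.ker_toSpanSingleton (ZMod 2) one_ne_zero)
  have e1 : ℓ 1 = 1 := by simpa using LinearMap.congr_fun hℓ 1
  have := congrArg (fun z => TensorProduct.lid (ZMod 2) W (ℓ.rTensor W z)) e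
  simpa [e1] using this

end Hyp

end CfsgLib.Suzuki
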