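import Cfsg.Agent.Lib.SuzukiModule.Endo

/-!
Torus-homogeneous cocycles of the root group with values in a twisted natural module.
-/

set_option autoImplicit false
set_option linter.unusedSectionVars false

namespace CfsgLib.Suzuki

open Matrix

variable {F : Type*} [Field F] {m : ℕ}

/-- The root element acting on a twisted natural module. -/
def uT (m : ℕ) (τ : F →+* F) (a b : F) : Matrix (Fin 4) (Fin 4) F := (uMat m a b).map τ

/-- The diagonal of a torus element. -/
def lamV (m : ℕ) (t : Fˣ) : Fin 4 → F :=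
  ![(t : F) * th m (t : F), (t : F), (t : F)⁻¹, ((t : F) * th m (t : F))⁻¹]

/-- The torus weights of a twisted natural module. -/
def wt (m : ℕ) (τ : F →+* F) (t : Fˣ) (i : Fin 4) : F := τ (lamV m t i)

theorem uT_mulVec_zero (τ : F →+* F) (a b : F) (v : Fin 4 → F) :
    (uT m τ a b *ᵥ v) 0 = v 0 + τ a * v 1 + τ (b + th m a * a) * v 2 + τ (fz m a b) * v 3 := by
  simp [uT, uMat, Matrix.mulVec, dotProduct, Fin.sum_univ_four]

theorem uT_mulVec_one (τ : F →+* F) (a b : F) (v : Fin 4 → F) :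
    (uT m τ a b *ᵥ v) 1 = v 1 + τ (th m a) * v 2 + τ b * v 3 := by
  simp [uT, uMat, Matrix.mulVec, dotProduct, Fin.sum_univ_four]

theorem uT_mulVec_two (τ : F →+* F) (a b : F) (v : Fin 4 → F) :
    (uT m τ a b *ᵥ v) 2 = v 2 + τ a * v 3 := by
  simp [uT, uMat, Matrix.mulVec, dotProduct, Fin.sum_univ_four]

theorem uT_mulVec_three (τ : F →+* F) (a b : F) (v : Fin 4 → F) :
    (uT m τ a b *ᵥ v) 3 = v 3 := by
  simp [uT, uMat, Matrix.mulVec, dotProduct, Fin.sum_univ_four]

theorem fz_zero_left (m : ℕ) (e : F) : fz m (0 : F) e = th m e := by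
  simp [fz]

/-- A homogeneous cocycle of the root group. -/
structure Cocycle (m : ℕ) (τ : F →+* F) (χ : Fˣ → F) (δ : F → F → Fin 4 → F) : Prop where
  mul : ∀ a b c e, δ (a + c) (b + e + th m a * c) = δ a b + uT m τ a b *ᵥ δ c e
  ne : ∀ t, χ t ≠ 0
  hom : ∀ (t : Fˣ) a b i,
    χ t * δ (kap m t * a) (th m (kap m t) * kap m t * b) i = wt m τ t i * δ a b i

namespace Hyp

variable (h : Hyp F m) {τ : F →+* F} {χ : Fˣ → F} {δ : F → F → Fin 4 → F}
include h

theorem uT_mul (τ : F →+* F) (a b c e : F) :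
    uT m τ a b * uT m τ c e = uT m τ (a + c) (b + e + th m a * c) := by
  have e1 := congrArg (fun g : Matrix.SpecialLinearGroup (Fin 4) F => (g : Matrix (Fin 4) (Fin 4) F))
    (h.uEl_mul a b c e)
  simp only [Matrix.SpecialLinearGroup.coe_mul, coe_uEl] at e1
  rw [uT, uT, uT, ← e1, Matrix.map_mul]

theorem wt_uT (τ : F →+* F) (t : Fˣ) (a b : F) (i j : Fin 4) :
    wt m τ t i * uT m τ a b i j =
      uT m τ (kap m t * a) (th m (kap m t) * kap m t * b) i j * wt m τ t j := by
  have e1 := h.dEl_uEl t a b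
  rw [mul_inv_eq_iff_eq_mul] at e1
  have e2 := congrArg (fun g : Matrix.SpecialLinearGroup (Fin 4) F => (g : Matrix (Fin 4) (Fin 4) F) i j) e1
  simp only [Matrix.SpecialLinearGroup.coe_mul, coe_uEl, coe_dEl, dMat, Matrix.diagonal_mul,
    Matrix.mul_diagonal] at e2
  simpa [wt, uT, lamV] using congrArg τ e2

/-- Changing a cocycle by a coboundary of the right weight. -/
theorem cocycle_add (hδ : Cocycle m τ χ δ) {v : Fin 4 → F}
    (hv : ∀ t i, wt m τ t i * v i = χ t * v i) :
    Cocycle m τ χ fun a b => δ a b + (uT m τ a b *ᵥ v + v) := by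
  refine ⟨fun a b c e => ?_, hδ.ne, fun t a b i => ?_⟩
  · simp only [Matrix.mulVec_add, Matrix.mulVec_mulVec, h.uT_mul, hδ.mul a b c e]
    funext i
    simp only [Pi.add_apply]
    linear_combination (-(uT m τ a b *ᵥ v) i) * h.two_eq_zero
  · simp only [Pi.add_apply, mul_add, hδ.hom t a b i]
    rw [← hv t i]
    congr 1
    congr 1
    simp only [Matrix.mulVec, dotProduct, Finset.mul_sum]
    refine Finset.sum_congr rfl fun j _ => ?_
    linear_combination (uT m τ (kap m t * a) (th m (kap m t) * kap m t * b) i j) * (hv t j).symm -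
      v j * h.wt_uT τ t a b i j

theorem surj_eps {e : F} (he : e ≠ 0) : ∃ t : Fˣ, th m (kap m t) * kap m t = e := by
  obtain ⟨κ, hκ⟩ := h.th_mul_self_bijective.2 e
  simp only at hκ
  have hκ0 : κ ≠ 0 := fun h0 => he (by rw [← hκ, h0, mul_zero])
  obtain ⟨t, ht⟩ := h.exists_kap hκ0
  exact ⟨t, by rw [ht]; exact hκ⟩

theorem cocycle_zero (hδ : Cocycle m τ χ δ) : δ 0 0 = 0 := by
  funext i
  have e := congrFun (hδ.mul 0 0 0 0) i
  simp only [th_zero, mul_zero, add_zero, Pi.add_apply] at e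
  have : uT m τ 0 0 *ᵥ δ 0 0 = δ 0 0 := by
    have h1 : uMat m (0 : F) 0 = 1 := congrArg Subtype.val h.uEl_zero
    rw [uT, h1, Matrix.map_one _ (map_zero τ) (map_one τ), Matrix.one_mulVec]
  rw [this] at e
  simpa using e

theorem cocycle_central (hδ : Cocycle m τ χ δ) (a b e : F) :
    δ a b + uT m τ a b *ᵥ δ 0 e = δ 0 e + uT m τ 0 e *ᵥ δ a b := by
  rw [← hδ.mul a b 0 e, ← hδ.mul 0 e a b]
  simp only [mul_zero, th_zero, zero_mul, add_zero, zero_add, add_comm b e]

theorem weight_of_ne_zero {x y A : F} (hA : A ≠ 0) (e : x * A = y * A) : x = y :=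
  mul_right_cancel₀ hA e

/-- An additive function, homogeneous for the torus, is a multiple of an endomorphism of known weight. -/
theorem homog_endo {k : Fˣ → F} (hk : ∀ e, e ≠ 0 → ∃ t, k t = e) {D : F → F} {w : Fˣ → F}
    (hχ : ∀ t, χ t ≠ 0) (hadd : ∀ a b, D (a + b) = D a + D b)
    (hh : ∀ t a, χ t * D (k t * a) = w t * D a) :
    ∃ π : F →+* F, (∀ a, D a = D 1 * π a) ∧ (D 1 ≠ 0 → ∀ t, χ t * π (k t) = w t) := by
  classical
  obtain ⟨π, hπ⟩ := h.exists_endo (D := D)
    (χ := fun κ => if hκ : κ ≠ 0 then w (hk κ hκ).choose / χ (hk κ hκ).choose else 0) hadd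
    (fun κ hκ a => by
      rw [dif_pos hκ, div_mul_eq_mul_div, eq_div_iff (hχ _), mul_comm]
      have e := hh (hk κ hκ).choose a
      rw [(hk κ hκ).choose_spec] at e
      exact e)
  refine ⟨π, hπ, fun h1 t => weight_of_ne_zero h h1 ?_⟩
  have := hh t 1
  rw [mul_one, hπ (k t)] at this
  linear_combination this

theorem cocycle_stageA (hδ : Cocycle m τ χ δ) :
    ∃ A : F, (∀ t, wt m τ t 3 * A = χ t * A) ∧ (∀ a b, δ a b 3 = 0 ∧ δ a b 2 = A * τ a) ∧
      ∀ e, δ 0 e 1 = A * τ e := by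
  have hc := h.cocycle_central hδ
  have h3 : ∀ e, δ 0 e 3 = 0 := fun e => by
    have := congrFun (hc 1 0 e) 2
    simp only [Pi.add_apply, uT_mulVec_two, map_one, map_zero, one_mul, zero_mul, add_zero] at this
    linear_combination this
  have hr1 : ∀ a b e, τ (th m a) * δ 0 e 2 = τ e * δ a b 3 := fun a b e => by
    have := congrFun (hc a b e) 1
    simp only [Pi.add_apply, uT_mulVec_one, th_zero, map_zero, zero_mul, add_zero, h3 e, mul_zero] at this
    linear_combination this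
  set k := δ 1 0 3 with hk
  have h2y : ∀ e, δ 0 e 2 = k * τ e := fun e => by
    have := hr1 1 0 e
    simp only [th_one, map_one, one_mul] at this
    rw [this, ← hk, mul_comm]
  have h3x : ∀ a b, δ a b 3 = k * τ (th m a) := fun a b => by
    have := hr1 a b 1
    rw [h2y, map_one, one_mul, mul_one] at this
    rw [← this, mul_comm]
  have hr0 : ∀ a b e, τ a * δ 0 e 1 + τ (b + th m a * a) * (k * τ e) =
      τ e * δ a b 2 + τ (th m e) * (k * τ (th m a)) := fun a b e => by
    have := congrFun (hc a b e) 0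
    simp only [Pi.add_apply, uT_mulVec_zero, th_zero, map_zero, zero_mul, add_zero, h3 e, mul_zero,
      fz_zero_left, h2y, h3x] at this
    linear_combination this
  have hk0 : k = 0 := by
    obtain ⟨a, ha0, ha1⟩ := h.exists_ne_zero_one
    have e1 := hr0 a (th m a * a) 1
    have e2 := hr0 1 1 a
    have e3 := hr0 a (th m a * a) a
    have e4 := hr0 1 1 1
    have hz : th m a * a + th m a * a = 0 := h.add_self _
    have hz' : (1 : F) + 1 = 0 := h.add_self _
    simp only [th_one, map_one, one_mul, mul_one, hz, hz', map_zero, zero_mul, add_zero] at e1 e2 e3 e4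
    have : k * ((τ (th m a) + τ a) * (τ (th m a) + τ a)) = 0 := by
      linear_combination e3 + τ a * e2 + τ a * e1 + τ a * τ a * e4 +
        (k * τ (th m a) * τ (th m a) + k * τ a * τ a + k * τ a * τ (th m a) * 2 + -(τ a * δ 0 a 1) +
          τ a * δ a (th m a * a) 2 - τ a * τ a * δ 0 1 1 + τ a * τ a * δ 1 1 2) * h.two_eq_zero
    have hne : τ (th m a) + τ a ≠ 0 := fun e =>
      h.th_ne_self ha0 ha1 (τ.injective (h.add_eq_zero_iff.1 e))
    simpa [hne] using this
  have h2 : ∀ a b, δ a b 2 = δ 0 1 1 * τ a := fun a b => by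
    have e1 := hr0 a b 1
    simp only [map_one, one_mul, hk0, zero_mul, mul_zero, add_zero] at e1
    rw [← e1, mul_comm]
  refine ⟨δ 0 1 1, fun t => ?_, fun a b => ⟨by rw [h3x, hk0, zero_mul], h2 a b⟩, fun e => ?_⟩
  · have e := hδ.hom t 1 0 2
    rw [mul_one, mul_zero, h2, h2, map_one, mul_one] at e
    set A := δ 0 1 1
    rcases eq_or_ne A 0 with h0 | h0
    · rw [h0, mul_zero, mul_zero]
    have ht : (t : F) ≠ 0 := t.ne_zero
    have e' : χ t * τ (th m (t : F)) = τ ((t : F)⁻¹) := by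
      refine weight_of_ne_zero h h0 ?_
      simp only [wt, lamV, kap, Matrix.cons_val] at e
      linear_combination e
    congr 1
    have : χ t = τ ((t : F)⁻¹) / τ (th m (t : F)) :=
      eq_div_of_mul_eq ((map_ne_zero τ).2 (th_ne_zero ht)) e'
    rw [this]
    simp [wt, lamV, map_mul, _root_.mul_inv_rev, div_eq_mul_inv, mul_comm]
  · have e1 := hr0 1 1 e
    simp only [hk0, mul_zero, zero_mul, add_zero, map_one, one_mul, h2] at e1
    rw [e1]
    simp [mul_comm]

theorem cocycle_stageB (hδ : Cocycle m τ χ δ) (hχ : ∃ t, χ t ≠ 1)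
    (h3 : ∀ a b, δ a b 3 = 0) (h2 : ∀ a b, δ a b 2 = 0) (h1 : ∀ e, δ 0 e 1 = 0) :
    ∃ p : F, (∀ t, wt m τ t 2 * p = χ t * p) ∧ ∀ a b, δ a b 1 = p * τ (th m a) := by
  have hadd1 : ∀ a b c e, δ (a + c) (b + e + th m a * c) 1 = δ a b 1 + δ c e 1 := fun a b c e => by
    rw [hδ.mul, Pi.add_apply, uT_mulVec_one, h2, h3]
    ring
  have hind : ∀ a b, δ a b 1 = δ a 0 1 := fun a b => by
    have := hadd1 a 0 0 b
    simpa [h1] using this
  have hD : ∀ a c, δ (a + c) 0 1 = δ a 0 1 + δ c 0 1 := fun a c => by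
    rw [← hadd1, hind (a + c) (0 + 0 + th m a * c)]
  obtain ⟨π, hπ, hπw⟩ := h.homog_endo (k := kap m) (fun e he => h.exists_kap he)
    (D := fun a => δ a 0 1) (w := fun t => wt m τ t 1) hδ.ne hD (fun t a => by have := hδ.hom t a 0 1; rwa [mul_zero] at this)
  set p := δ 1 0 1 with hp
  rcases eq_or_ne p 0 with hp0 | hp0
  · exact ⟨0, fun t => by simp, fun a b => by rw [hind, hπ, hp0, zero_mul, zero_mul]⟩
  -- squares in row `0`
  have hc := h.cocycle_central hδ
  have hadd0 : ∀ e e', δ 0 (e + e') 0 = δ 0 e 0 + δ 0 e' 0 := fun e e' => by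
    have := congrFun (hδ.mul 0 e 0 e') 0
    simpa [uT_mulVec_zero, h1, h2, h3] using this
  obtain ⟨ρ, hρ, -⟩ := h.homog_endo (k := fun t => th m (kap m t) * kap m t) (fun e he => h.surj_eps he)
    (D := fun e => δ 0 e 0) (w := fun t => wt m τ t 0) hδ.ne hadd0
    (fun t e => by have := hδ.hom t 0 e 0; rwa [mul_zero] at this)
  have hsq : ∀ a, δ 0 (th m a * a) 0 = τ a * (p * π a) := fun a => by
    have := congrFun (hδ.mul a 0 a 0) 0
    rw [h.add_self, zero_add, zero_add, Pi.add_apply, uT_mulVec_zero, h2, h3, hπ] at this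
    linear_combination this + (δ a 0 0) * h.two_eq_zero
  have hr : δ 0 1 0 = p := by simpa using hsq 1
  have hprod : ∀ a, (ρ.comp h.thHom) a * ρ a = τ a * π a := fun a => by
    have e := hsq a
    rw [hρ, hr, map_mul] at e
    exact mul_left_cancel₀ hp0 (by rw [RingHom.comp_apply, thHom_apply]; linear_combination e)
  rcases h.endo_pair hprod with ⟨hτ, hρπ⟩ | ⟨hπρ, hρτ⟩
  · obtain ⟨t, ht⟩ := hχ
    exfalso
    have e := hπw hp0 t
    refine ht (mul_right_cancel₀ ((map_ne_zero π).2 (kap_ne_zero m t)) ?_)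
    rw [e, one_mul]
    simp [wt, lamV, ← hτ, ← hρπ, thHom_apply, kap]
  · have hπv : ∀ a, π a = τ (th m a) := fun a => by
      rw [← hρτ, ← hπρ, RingHom.comp_apply, thHom_apply]
    refine ⟨p, fun t => ?_, fun a b => by rw [hind, hπ, hπv]⟩
    have e := hπw hp0 t
    have ht : τ (t : F) ≠ 0 := (map_ne_zero τ).2 t.ne_zero
    simp [wt, lamV, hπv, kap, h.th_th] at e ⊢
    left
    field_simp at e ⊢
    linear_combination -e

theorem cocycle_stageC (hδ : Cocycle m τ χ δ)
    (h3 : ∀ a b, δ a b 3 = 0) (h2 : ∀ a b, δ a b 2 = 0) (h1 : ∀ a b, δ a b 1 = 0) :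
    ∃ (c : F) (π : F →+* F), (c ≠ 0 → ∀ t, χ t * π (kap m t) = wt m τ t 0) ∧
      ∀ a b, δ a b 0 = c * π a := by
  have hadd : ∀ a b c e, δ (a + c) (b + e + th m a * c) 0 = δ a b 0 + δ c e 0 := fun a b c e => by
    rw [hδ.mul, Pi.add_apply, uT_mulVec_zero, h1, h2, h3]
    ring
  have hy : ∀ e, δ 0 e 0 = 0 := fun e => by
    obtain ⟨a, ha⟩ := h.th_mul_self_bijective.2 e
    simp only at ha
    have := hadd a 0 a 0
    rw [h.add_self, zero_add, zero_add, ha] at this
    rw [this, h.add_self]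
  have hind : ∀ a b, δ a b 0 = δ a 0 0 := fun a b => by
    have := hadd a 0 0 b
    simpa [hy] using this
  obtain ⟨π, hπ, hπw⟩ := h.homog_endo (k := kap m) (fun e he => h.exists_kap he)
    (D := fun a => δ a 0 0) (w := fun t => wt m τ t 0) hδ.ne
    (fun a c => by show δ (a + c) 0 0 = _; rw [← hadd, hind (a + c) (0 + 0 + th m a * c)])
    (fun t a => by have := hδ.hom t a 0 0; rwa [mul_zero] at this)
  exact ⟨δ 1 0 0, π, hπw, fun a b => by rw [hind]; exact hπ a⟩

/-- Normal form of a homogeneous cocycle. -/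
theorem cocycle_normal (hδ : Cocycle m τ χ δ) (hχ : ∃ t, χ t ≠ 1) :
    ∃ (v : Fin 4 → F) (c : F) (π : F →+* F), (∀ t i, wt m τ t i * v i = χ t * v i) ∧
      (c ≠ 0 → ∀ t, χ t * π (kap m t) = wt m τ t 0) ∧
      ∀ a b, δ a b + (uT m τ a b *ᵥ v + v) = Pi.single 0 (c * π a) := by
  obtain ⟨A, hA, hA23, hA1⟩ := h.cocycle_stageA hδ
  set v1 : Fin 4 → F := ![0, 0, 0, A] with hv1def
  have hv1 : ∀ t i, wt m τ t i * v1 i = χ t * v1 i := by
    intro t i
    fin_cases i <;> simp [hv1def, hA t]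
  have hδ1 := h.cocycle_add hδ hv1
  obtain ⟨p, hp, hp1⟩ := h.cocycle_stageB hδ1 hχ
    (fun a b => by
      simp only [Pi.add_apply, uT_mulVec_three, (hA23 a b).1]
      linear_combination (v1 3) * h.two_eq_zero)
    (fun a b => by
      simp only [Pi.add_apply, uT_mulVec_two, (hA23 a b).2, hv1def, Matrix.cons_val]
      linear_combination (A * τ a) * h.two_eq_zero)
    (fun e => by
      simp only [Pi.add_apply, uT_mulVec_one, hA1 e, hv1def, Matrix.cons_val]
      linear_combination (A * τ e) * h.two_eq_zero)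
  set v : Fin 4 → F := ![0, 0, p, A] with hvdef
  have hv : ∀ t i, wt m τ t i * v i = χ t * v i := by
    intro t i
    fin_cases i <;> simp [hvdef, hA t, hp t]
  have hδ2 := h.cocycle_add hδ hv
  have h3 : ∀ a b, (δ a b + (uT m τ a b *ᵥ v + v)) 3 = 0 := fun a b => by
    simp only [Pi.add_apply, uT_mulVec_three, (hA23 a b).1]
    linear_combination (v 3) * h.two_eq_zero
  have h2 : ∀ a b, (δ a b + (uT m τ a b *ᵥ v + v)) 2 = 0 := fun a b => by
    simp only [Pi.add_apply, uT_mulVec_two, (hA23 a b).2, hvdef, Matrix.cons_val]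
    linear_combination (A * τ a + p) * h.two_eq_zero
  have h1 : ∀ a b, (δ a b + (uT m τ a b *ᵥ v + v)) 1 = 0 := fun a b => by
    have e := hp1 a b
    simp only [Pi.add_apply, uT_mulVec_one, hvdef, hv1def, Matrix.cons_val] at e ⊢
    linear_combination e + (p * τ (th m a)) * h.two_eq_zero
  obtain ⟨c, π, hπ, h0⟩ := h.cocycle_stageC hδ2 h3 h2 h1
  refine ⟨v, c, π, hv, hπ, fun a b => ?_⟩
  funext i
  fin_cases i
  · simpa using h0 a b
  · simpa using h1 a b
  · simpa using h2 a b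
  · simpa using h3 a b

end Hyp

end CfsgLib.Suzuki
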