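import Cfsg.Agent.Lib.Suzuki.Elements

/-!
Relations between endomorphisms of a field with a Tits endomorphism.
-/

set_option autoImplicit false
set_option linter.unusedSectionVars false

namespace CfsgLib.Suzuki.Hyp

variable {F : Type*} [Field F] {m : ℕ} (h : Hyp F m)
include h

/-- The Tits endomorphism as a ring homomorphism. -/
def thHom : F →+* F where
  toFun := th m
  map_one' := th_one m
  map_mul' := th_mul m
  map_zero' := th_zero m
  map_add' := h.th_add

theorem thHom_apply (x : F) : h.thHom x = th m x := rfl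

theorem th_ne_self {x : F} (h0 : x ≠ 0) (h1 : x ≠ 1) : th m x ≠ x :=
  fun e => (h.th_eq_self e).elim h0 h1

theorem sq_ne_self {x : F} (h0 : x ≠ 0) (h1 : x ≠ 1) : x * x ≠ x :=
  fun e => h1 (mul_left_cancel₀ h0 (e.trans (mul_one x).symm))

theorem th_ne_sq {x : F} (h0 : x ≠ 0) (h1 : x ≠ 1) : th m x ≠ x * x := by
  intro e
  have h2 := h.th_th x
  rw [e, th_mul, e] at h2
  exact h.sq_ne_self h0 h1 (h.sq_injective (x := x * x) (y := x) (by rw [pow_two, h2]))

/-- `t θt` takes every nonzero value. -/
theorem exists_lam {x : F} (hx : x ≠ 0) : ∃ t : Fˣ, (t : F) * th m (t : F) = x := by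
  obtain ⟨y, hy⟩ := h.th_mul_self_bijective.2 x
  simp only at hy
  refine ⟨Units.mk0 y (fun h0 => hx ?_), by rw [Units.val_mk0, mul_comm]; exact hy⟩
  rw [← hy, h0, mul_zero]

theorem eight_le [Fintype F] : 8 ≤ Fintype.card F := by
  rw [← Nat.card_eq_fintype_card, h.card]
  exact le_trans (by norm_num) (Nat.pow_le_pow_right (show 0 < 2 by norm_num)
    (show 3 ≤ 2 * m + 1 by have := h.one_le; omega))

theorem exists_two_generic : ∃ x y : F, x ≠ 0 ∧ x ≠ 1 ∧ y ≠ 0 ∧ y ≠ 1 ∧ x + y ≠ 0 ∧ x + y ≠ 1 := by
  obtain ⟨x, hx0, hx1⟩ := h.exists_ne_zero_one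
  classical
  have := h.finite
  have : Fintype F := Fintype.ofFinite F
  by_contra hc
  push Not at hc
  have hle : Fintype.card F ≤ ({0, 1, x, x + 1} : Finset F).card := by
    rw [← Finset.card_univ]
    refine Finset.card_le_card fun y _ => ?_
    simp only [Finset.mem_insert, Finset.mem_singleton]
    rcases eq_or_ne y 0 with e | e0
    · exact Or.inl e
    rcases eq_or_ne y 1 with e | e1
    · exact Or.inr (Or.inl e)
    rcases eq_or_ne (x + y) 0 with e | e2
    · exact Or.inr (Or.inr (Or.inl (h.add_eq_zero_iff.1 e).symm))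
    · exact Or.inr (Or.inr (Or.inr (by linear_combination hc x y hx0 hx1 e0 e1 e2 - x * h.two_eq_zero)))
  have := hle.trans Finset.card_le_four
  have := h.eight_le
  omega

/-- `α = β γ` forces `β = γ`. -/
theorem endo_mul_eq {α β γ : F →+* F} (he : ∀ x, α x = β x * γ x) :
    β = γ ∧ ∀ x, α x = β x * β x := by
  have hbg : β = γ := by
    refine RingHom.ext fun x => ?_
    have e := he (x + 1)
    simp only [map_add, map_one] at e
    linear_combination e.symm + he x - (γ x) * h.two_eq_zero
  subst hbg
  exact ⟨rfl, he⟩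

/-- `α β = γ δ` forces equality of the pairs. -/
theorem endo_pair {α β γ δ : F →+* F} (he : ∀ x, α x * β x = γ x * δ x) :
    (α = γ ∧ β = δ) ∨ (α = δ ∧ β = γ) := by
  have hs : ∀ x, α x + β x = γ x + δ x := fun x => by
    have e := he (x + 1)
    simp only [map_add, map_one] at e
    linear_combination e - he x
  have hor : ∀ x, α x = γ x ∨ α x = δ x := fun x => by
    have h0 : (α x - γ x) * (α x - δ x) = 0 := by linear_combination (α x) * hs x - he x
    exact (mul_eq_zero.1 h0).imp sub_eq_zero.1 sub_eq_zero.1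
  have hall : α = γ ∨ α = δ := by
    by_contra hc
    push Not at hc
    obtain ⟨x, hx⟩ := not_forall.1 fun e => hc.1 (RingHom.ext e)
    obtain ⟨y, hy⟩ := not_forall.1 fun e => hc.2 (RingHom.ext e)
    have hx' := (hor x).resolve_left hx
    have hy' := (hor y).resolve_right hy
    rcases hor (x + y) with e | e <;> simp only [map_add] at e
    · exact hx (add_right_cancel (e.trans (by rw [hy'])))
    · exact hy (add_left_cancel (e.trans (by rw [hx'])))
  rcases hall with rfl | rfl
  · exact Or.inl ⟨rfl, RingHom.ext fun x => add_left_cancel (hs x)⟩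
  · exact Or.inr ⟨rfl, RingHom.ext fun x => add_left_cancel ((hs x).trans (add_comm _ _))⟩

/-- No product of two endomorphisms is trivial. -/
theorem endo_not_inv {α β : F →+* F} (he : ∀ x, x ≠ 0 → α x * β x = 1) : False := by
  obtain ⟨x, y, hx0, hx1, hy0, hy1, hz0, hz1⟩ := h.exists_two_generic
  have key : ∀ z, z ≠ 0 → z ≠ 1 → α z + β z = 1 := fun z h0 h1 => by
    have e := he (z + 1) (fun e => h1 (h.add_eq_zero_iff.1 e))
    simp only [map_add, map_one] at e
    linear_combination e - he z h0 - h.two_eq_zero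
  have e1 := key x hx0 hx1
  have e2 := key y hy0 hy1
  have e3 := key (x + y) hz0 hz1
  simp only [map_add] at e3
  exact one_ne_zero (α := F) (by linear_combination e3 - e1 - e2)

theorem endo_not_const {α : F →+* F} (he : ∀ x, x ≠ 0 → α x = 1) : False := by
  obtain ⟨x, hx0, hx1⟩ := h.exists_ne_zero_one
  exact hx1 (α.injective (by rw [he x hx0, map_one]))

/-- An additive map, homogeneous under scaling, is a multiple of an endomorphism. -/
theorem exists_endo {D : F → F} {χ : F → F} (hadd : ∀ a b, D (a + b) = D a + D b)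
    (hhom : ∀ κ, κ ≠ 0 → ∀ a, D (κ * a) = χ κ * D a) :
    ∃ π : F →+* F, ∀ a, D a = D 1 * π a := by
  rcases eq_or_ne (D 1) 0 with h1 | h1
  · refine ⟨RingHom.id F, fun a => ?_⟩
    rcases eq_or_ne a 0 with rfl | ha
    · have := hadd 0 0; simp at this; simp [this]
    · rw [← mul_one a, hhom a ha, h1, mul_zero, zero_mul]
  have h0 : D 0 = 0 := by have := hadd 0 0; simpa using this
  let π : F →+* F :=
    { toFun := fun a => D a / D 1
      map_one' := div_self h1
      map_zero' := by simp [h0]
      map_mul' := fun a b => by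
        rcases eq_or_ne a 0 with rfl | ha
        · simp [h0]
        · have e := hhom a ha 1
          rw [mul_one] at e
          rw [hhom a ha, e]
          field_simp
      map_add' := fun a b => by rw [hadd, add_div] }
  exact ⟨π, fun a => (mul_div_cancel₀ (D a) h1).symm⟩

/-- The coefficient of `θ` in a combination of `θ`, `1`, the square and `θ²`. -/
theorem coef_zero {c K L M : F}
    (he : ∀ e : F, c * th m e + K * e + L * (e * e) + M * th m (e * e) = 0) : c = 0 := by
  obtain ⟨r, hr0, hr1⟩ := h.exists_ne_zero_one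
  have hr2 : r * r ≠ 0 := mul_ne_zero hr0 hr0
  have hr3 : r * r ≠ 1 := fun e => hr1 (h.sq_injective (by rw [one_pow, pow_two]; exact e))
  have h1 : ∀ e : F, c * (th m r + r * r) * th m e + K * (r + r * r) * e +
      M * (th m (r * r) + r * r) * th m (e * e) = 0 := fun e => by
    have e1 := he (r * e)
    rw [show r * e * (r * e) = (r * r) * (e * e) by ring, th_mul, th_mul] at e1
    linear_combination e1 + (r * r) * he e - (L * (r * r) * (e * e)) * h.two_eq_zero
  have h2 : ∀ e : F, c * (th m r + r * r) * (th m r + r) * th m e +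
      M * (th m (r * r) + r * r) * (th m (r * r) + r) * th m (e * e) = 0 := fun e => by
    have e1 := h1 (r * e)
    rw [show r * e * (r * e) = (r * r) * (e * e) by ring, th_mul m r e, th_mul m (r * r) (e * e)] at e1
    linear_combination e1 + r * h1 e - (K * (r + r * r) * r * e) * h.two_eq_zero
  have h3 : c * (th m r + r * r) * (th m r + r) * (th m r + th m (r * r)) = 0 := by
    have e1 := h2 r
    have e0 := h2 1
    simp only [mul_one, th_one] at e0
    linear_combination e1 + th m (r * r) * e0 -
      (M * (th m (r * r) + r * r) * (th m (r * r) + r) * th m (r * r)) * h.two_eq_zero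
  have ha : th m r + r * r ≠ 0 := fun e => h.th_ne_sq hr0 hr1 (h.add_eq_zero_iff.1 e)
  have hb : th m r + r ≠ 0 := fun e => h.th_ne_self hr0 hr1 (h.add_eq_zero_iff.1 e)
  have hc : th m r + th m (r * r) ≠ 0 := fun e =>
    h.sq_ne_self hr0 hr1 (h.th_injective (h.add_eq_zero_iff.1 e)).symm
  simpa [mul_eq_zero, ha, hb, hc] using h3

end CfsgLib.Suzuki.Hyp
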