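import Cfsg.Agent.Lib.Suzuki.Field

/-!
A ring of characteristic four lifting a finite field of characteristic two.
-/

set_option autoImplicit false
set_option linter.unusedSectionVars false

namespace CfsgLib.Suzuki

open Polynomial

theorem cast_four_two : ∀ z : ZMod 4, (ZMod.cast z : ZMod 2) = 0 → ∃ d, z = 2 * d := by decide

/-- Data of a lift of `F` to characteristic four. -/
structure Lift4 (F : Type*) [Field F] (R : Type) [CommRing R] [Algebra (ZMod 4) R] where
  π : R →+* F
  surj : Function.Surjective π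
  ker : ∀ r, π r = 0 ↔ ∃ s, r = 2 * s
  ℓ : R →ₗ[ZMod 4] ZMod 4
  ℓ_one : ℓ 1 = 1
  finite : Module.Finite (ZMod 4) R

/-- Every finite field of characteristic two lifts. -/
theorem exists_lift4 (F : Type*) [Field F] [Finite F] [CharP F 2] :
    ∃ (R : Type) (_ : CommRing R) (_ : Algebra (ZMod 4) R), Nonempty (Lift4 F R) := by
  classical
  have : Fact (Nat.Prime 2) := ⟨Nat.prime_two⟩
  letI : Algebra (ZMod 2) F := ZMod.algebra F 2
  obtain ⟨α, hα⟩ := IsCyclic.exists_generator (α := Fˣ)
  have hint : IsIntegral (ZMod 2) (α : F) := Algebra.IsIntegral.isIntegral _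
  let c : ZMod 4 →+* ZMod 2 := ZMod.castHom (by norm_num : (2 : ℕ) ∣ 4) (ZMod 2)
  have hc : Function.Surjective c := ZMod.ringHom_surjective c
  have hlift : minpoly (ZMod 2) (α : F) ∈ Polynomial.lifts c := by
    rw [Polynomial.mem_lifts]
    exact Polynomial.map_surjective c hc _
  obtain ⟨f, hf, hdeg, hm⟩ := Polynomial.lifts_and_natDegree_eq_and_monic hlift (minpoly.monic hint)
  let ι : ZMod 4 →+* F := (algebraMap (ZMod 2) F).comp c
  have hroot : f.eval₂ ι (α : F) = 0 := by
    rw [← Polynomial.eval₂_map, hf, ← Polynomial.aeval_def, minpoly.aeval]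
  let π : AdjoinRoot f →+* F := AdjoinRoot.lift ι (α : F) hroot
  have hπ : ∀ g : (ZMod 4)[X], π (AdjoinRoot.mk f g) = Polynomial.aeval (α : F) (g.map c) := fun g => by
    rw [Polynomial.aeval_def, Polynomial.eval₂_map]
    exact AdjoinRoot.lift_mk hroot g
  have hker : ∀ z : ZMod 4, c z = 0 → ∃ d, z = 2 * d := by
    intro z hz
    exact cast_four_two z hz
  have hpos : 0 < f.natDegree := by rw [hdeg]; exact minpoly.natDegree_pos hint
  haveI : Module.Finite (ZMod 4) (AdjoinRoot f) := (AdjoinRoot.powerBasis' hm).finite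
  refine ⟨AdjoinRoot f, inferInstance, inferInstance, ⟨⟨π, fun x => ?_, fun r => ?_,
    (AdjoinRoot.powerBasis' hm).basis.coord ⟨0, by rw [AdjoinRoot.powerBasis'_dim]; exact hpos⟩, ?_,
    inferInstance⟩⟩⟩
  · rcases eq_or_ne x 0 with rfl | hx
    · exact ⟨0, map_zero _⟩
    obtain ⟨k, hk⟩ := (Submonoid.mem_powers_iff _ _).1
      ((mem_powers_iff_mem_zpowers (x := α)).2 (hα (Units.mk0 x hx)))
    refine ⟨AdjoinRoot.root f ^ k, ?_⟩
    rw [map_pow]
    simp only [π, AdjoinRoot.lift_root]
    rw [← Units.val_pow_eq_pow_val, hk, Units.val_mk0]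
  · constructor
    · intro hr
      obtain ⟨g, rfl⟩ := AdjoinRoot.mk_surjective r
      have e : AdjoinRoot.mk f g = AdjoinRoot.mk f (g %ₘ f) := by
        rw [AdjoinRoot.mk_eq_mk]
        exact ⟨g /ₘ f, by linear_combination -(Polynomial.modByMonic_add_div g f)⟩
      rw [e] at hr ⊢
      rw [hπ] at hr
      have h0 : (g %ₘ f).map c = 0 := by
        by_contra hne
        have h1 := Polynomial.natDegree_le_of_dvd (minpoly.dvd (ZMod 2) (α : F) hr) hne
        have h2 : (g %ₘ f).natDegree < f.natDegree :=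
          Polynomial.natDegree_modByMonic_lt g hm (fun e => by rw [e] at hpos; simp at hpos)
        have h3 := Polynomial.natDegree_map_le (f := c) (p := g %ₘ f)
        omega
      obtain ⟨g', hg'⟩ := (Polynomial.C_dvd_iff_dvd_coeff 2 (g %ₘ f)).2 fun i => by
        have := congrArg (fun p : (ZMod 2)[X] => p.coeff i) h0
        simp only [Polynomial.coeff_map, Polynomial.coeff_zero] at this
        obtain ⟨d, hd⟩ := hker _ this
        exact ⟨d, hd⟩
      exact ⟨AdjoinRoot.mk f g', by rw [hg', map_mul, AdjoinRoot.mk_C, map_ofNat]⟩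
    · rintro ⟨s, rfl⟩
      rw [map_mul, map_ofNat, CharTwo.two_eq_zero, zero_mul]
  · rw [Module.Basis.coord_apply]
    have : (AdjoinRoot.powerBasis' hm).basis ⟨0, by rw [AdjoinRoot.powerBasis'_dim]; exact hpos⟩ = 1 := by
      rw [PowerBasis.coe_basis]; simp
    rw [← this, Module.Basis.repr_self]
    simp

end CfsgLib.Suzuki
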