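import Cfsg.Agent.Lib.SuzukiModule.Trilinear
import Cfsg.Agent.Lib.SuzukiModule.Ring

/-!
A module over the lifted ring without fixed points for elements of order five is killed by two.
-/

set_option autoImplicit false
set_option linter.unusedSectionVars false

namespace CfsgLib.Suzuki

open Matrix

universe u

variable {F : Type*} [Field F] {m : ℕ} {R : Type} [CommRing R] [Algebra (ZMod 4) R]

theorem Lift4.four (Λ : Lift4 F R) : (4 : R) = 0 := by
  have := Λ.finite
  rw [← map_ofNat (algebraMap (ZMod 4) R) 4]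
  exact map_zero _

/-- The structure of a vector space on a module killed by the kernel of reduction. -/
@[reducible] noncomputable def Lift4.modF (Λ : Lift4 F R) (M : Type*) [AddCommGroup M] [Module R M]
    (h2 : ∀ x : M, (2 : R) • x = 0) : Module F M :=
  have key : ∀ r r' : R, Λ.π r = Λ.π r' → ∀ x : M, r • x = r' • x := fun r r' e x => by
    obtain ⟨s, hs⟩ := (Λ.ker (r - r')).1 (by rw [map_sub, e, sub_self])
    rw [← sub_eq_zero, ← sub_smul, hs, mul_comm, mul_smul, h2, smul_zero]
  { smul := fun c x => Function.surjInv Λ.surj c • x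
    one_smul := fun x => (key _ 1 (by rw [Function.surjInv_eq Λ.surj, map_one]) x).trans (one_smul R x)
    mul_smul := fun c d x => (key _ (Function.surjInv Λ.surj c * Function.surjInv Λ.surj d)
      (by simp only [map_mul, Function.surjInv_eq Λ.surj]) x).trans (mul_smul _ _ x)
    smul_zero := fun c => smul_zero (Function.surjInv Λ.surj c)
    smul_add := fun c x y => smul_add (Function.surjInv Λ.surj c) x y
    add_smul := fun c d x => (key _ (Function.surjInv Λ.surj c + Function.surjInv Λ.surj d)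
      (by simp only [map_add, Function.surjInv_eq Λ.surj]) x).trans (add_smul _ _ x)
    zero_smul := fun x => (key _ 0 (by rw [Function.surjInv_eq Λ.surj, map_zero]) x).trans (zero_smul R x) }

theorem Lift4.modF_smul (Λ : Lift4 F R) {M : Type*} [AddCommGroup M] [Module R M]
    (h2 : ∀ x : M, (2 : R) • x = 0) (r : R) (x : M) :
    letI := Λ.modF M h2
    Λ.π r • x = r • x := by
  obtain ⟨s, hs⟩ := (Λ.ker (Function.surjInv Λ.surj (Λ.π r) - r)).1
    (by rw [map_sub, Function.surjInv_eq Λ.surj, sub_self])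
  show Function.surjInv Λ.surj (Λ.π r) • x = r • x
  rw [← sub_eq_zero, ← sub_smul, hs, mul_comm, mul_smul, h2, smul_zero]

namespace Hyp

variable (h : Hyp F m)
include h

theorem sq_surj (x : F) : ∃ y, y * y = x := by
  have := h.finite
  obtain ⟨y, hy⟩ := (Finite.injective_iff_surjective.1 fun a b (e : a ^ 2 = b ^ 2) => h.sq_injective e) x
  exact ⟨y, by rw [← pow_two]; exact hy⟩

variable (Λ : Lift4 F R)
include Λ

/-- Multiplicative section of the reduction. -/
noncomputable def tm (x : F) : R :=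
  Function.surjInv Λ.surj (h.sq_surj x).choose * Function.surjInv Λ.surj (h.sq_surj x).choose

theorem pi_tm (x : F) : Λ.π (h.tm Λ x) = x := by
  rw [tm, map_mul, Function.surjInv_eq Λ.surj]
  exact (h.sq_surj x).choose_spec

theorem tm_eq {x : F} {r : R} (e : Λ.π r * Λ.π r = x) : h.tm Λ x = r * r := by
  have e1 : Function.surjInv Λ.surj (h.sq_surj x).choose - r ∈ {z | Λ.π z = 0} := by
    show Λ.π _ = 0
    rw [map_sub, Function.surjInv_eq Λ.surj, sub_eq_zero]
    exact h.sq_injective (by rw [pow_two, pow_two, e]; exact (h.sq_surj x).choose_spec)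
  obtain ⟨s, hs⟩ := (Λ.ker _).1 e1
  rw [tm, sub_eq_iff_eq_add.1 hs]
  linear_combination (s * s + r * s) * Λ.four

theorem tm_one : h.tm Λ (1 : F) = 1 := by
  rw [h.tm_eq Λ (r := 1) (by rw [map_one, one_mul]), one_mul]

theorem tm_mul (x y : F) : h.tm Λ (x * y) = h.tm Λ x * h.tm Λ y := by
  obtain ⟨a, rfl⟩ := h.sq_surj x
  obtain ⟨b, rfl⟩ := h.sq_surj y
  obtain ⟨r, rfl⟩ := Λ.surj a
  obtain ⟨s, rfl⟩ := Λ.surj b
  rw [h.tm_eq Λ (r := r * s) (by rw [map_mul]; ring), h.tm_eq Λ (r := r) rfl, h.tm_eq Λ (r := s) rfl]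
  ring

/-- Modules over the lifted ring are killed by two. -/
theorem two_smul_zero (n : ℕ) : ∀ (N : Type u) [AddCommGroup N] [Module R N] [Finite N]
    (ρ : Representation R (Cfsg.Sz F m) N), h.Five (fun g x => ρ g x) → Nat.card N ≤ n →
    ∀ x : N, (2 : R) • x = 0 := by
  induction n using Nat.strong_induction_on with
  | _ n ih =>
  intro N _ _ _ ρ h5 hn
  classical
  have hfin := h.finite
  have hρc : ∀ g g' x, ρ g (ρ g' x) = ρ (g * g') x := fun g g' x => by rw [map_mul, Module.End.mul_apply]
  by_contra hc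
  push Not at hc
  obtain ⟨x0, hx0⟩ := hc
  have h22 : ∀ x : N, (2 : R) • ((2 : R) • x) = 0 := fun x => by
    rw [smul_smul, show (2 : R) * 2 = 4 by norm_num, Λ.four, zero_smul]
  -- proper submodules and proper quotients are elementary
  have hsub : ∀ S : Submodule R N, (∀ g, ∀ x ∈ S, ρ g x ∈ S) → S ≠ ⊤ → ∀ x ∈ S, (2 : R) • x = 0 := by
    intro S hS hne x hx
    haveI : Finite S := Finite.of_injective _ S.subtype_injective
    have hlt : Nat.card S < n := lt_of_lt_of_le (by
      haveI := Fintype.ofFinite N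
      haveI := Fintype.ofFinite S
      rw [Nat.card_eq_fintype_card, Nat.card_eq_fintype_card]
      exact Fintype.card_lt_of_injective_of_notMem _ S.subtype_injective
        (b := (SetLike.exists_not_mem_of_ne_top S hne).choose) (by
          rw [Submodule.coe_subtype, Subtype.range_coe]
          exact (SetLike.exists_not_mem_of_ne_top S hne).choose_spec)) hn
    let r : Representation R (Cfsg.Sz F m) S :=
      { toFun := fun g => (ρ g).restrict (hS g)
        map_one' := by ext y; simp
        map_mul' := fun g g' => by ext y; simp [Module.End.mul_apply] }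
    have := ih _ hlt S r (fun y => Subtype.ext (h5 (y : N))) le_rfl ⟨x, hx⟩
    exact congrArg Subtype.val this
  have hquot : ∀ S : Submodule R N, (∀ g, ∀ x ∈ S, ρ g x ∈ S) → S ≠ ⊥ → ∀ x, (2 : R) • x ∈ S := by
    intro S hS hne x
    haveI : Finite (N ⧸ S) := Finite.of_surjective _ S.mkQ_surjective
    have hlt : Nat.card (N ⧸ S) < n := lt_of_lt_of_le (by
      haveI := Fintype.ofFinite N
      haveI := Fintype.ofFinite (N ⧸ S)
      rw [Nat.card_eq_fintype_card, Nat.card_eq_fintype_card]
      refine Fintype.card_lt_of_surjective_not_injective _ S.mkQ_surjective fun hi => hne ?_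
      rw [← Submodule.ker_mkQ S]
      exact LinearMap.ker_eq_bot.2 hi) hn
    let r : Representation R (Cfsg.Sz F m) (N ⧸ S) :=
      { toFun := fun g => S.mapQ S (ρ g) (hS g)
        map_one' := by refine Submodule.linearMap_qext _ (LinearMap.ext fun y => ?_); simp
        map_mul' := fun g g' => by
          refine Submodule.linearMap_qext _ (LinearMap.ext fun y => ?_); simp [Module.End.mul_apply] }
    have := ih _ hlt (N ⧸ S) r (fun y => by
      obtain ⟨y, rfl⟩ := Submodule.Quotient.mk_surjective S y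
      show Submodule.Quotient.mk y + Submodule.Quotient.mk (ρ _ y) + Submodule.Quotient.mk (ρ _ y) +
        Submodule.Quotient.mk (ρ _ y) + Submodule.Quotient.mk (ρ _ y) = (0 : N ⧸ S)
      simp only [← Submodule.Quotient.mk_add, h5 y, Submodule.Quotient.mk_zero]) le_rfl
      (Submodule.Quotient.mk x)
    rwa [← Submodule.Quotient.mk_smul, Submodule.Quotient.mk_eq_zero] at this
  -- the image of doubling
  let L : Submodule R N := LinearMap.range ((2 : R) • (LinearMap.id : N →ₗ[R] N))
  have hLmem : ∀ {y}, y ∈ L ↔ ∃ x, (2 : R) • x = y := fun {y} => by simp [L]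
  have hL : ∀ g, ∀ x ∈ L, ρ g x ∈ L := fun g x hx => by
    obtain ⟨y, rfl⟩ := hLmem.1 hx
    exact hLmem.2 ⟨ρ g y, (map_smul _ _ _).symm⟩
  have hLbot : L ≠ ⊥ := fun e => hx0 (by
    have := hLmem.2 ⟨x0, rfl⟩
    rwa [e, Submodule.mem_bot] at this)
  have hLtop : L ≠ ⊤ := fun e => hx0 (by
    obtain ⟨y, hy⟩ := hLmem.1 (show x0 ∈ L by rw [e]; trivial)
    rw [← hy, h22])
  have hL2 : ∀ y : L, (2 : R) • y = 0 := fun y => Subtype.ext (by
    rw [Submodule.coe_smul, ZeroMemClass.coe_zero]; exact hsub L hL hLtop y y.2)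
  letI : Module F L := Λ.modF L hL2
  have hLsm : ∀ (r : R) (y : L), Λ.π r • y = r • y := Λ.modF_smul hL2
  haveI : Finite L := Finite.of_injective _ L.subtype_injective
  haveI : Nontrivial L := Submodule.nontrivial_iff_ne_bot.2 hLbot
  let ρL : Representation F (Cfsg.Sz F m) L :=
    { toFun := fun g =>
        { toFun := fun y => ⟨ρ g y, hL g y y.2⟩
          map_add' := fun y y' => Subtype.ext (map_add _ _ _)
          map_smul' := fun c y => by
            obtain ⟨r, rfl⟩ := Λ.surj c
            rw [RingHom.id_apply, hLsm, hLsm]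
            exact Subtype.ext (map_smul _ _ _) }
      map_one' := by ext y; simp
      map_mul' := fun g g' => by ext y; simp [Module.End.mul_apply] }
  obtain ⟨σ, e, he⟩ := h.irreducible_natural (ρ := ρL) (fun y => Subtype.ext (h5 (y : N))) (fun S hS hne => by
    let T : Submodule R N :=
      { carrier := {y | ∃ hy : y ∈ L, (⟨y, hy⟩ : L) ∈ S}
        add_mem' := fun ⟨a, ha⟩ ⟨b, hb⟩ => ⟨L.add_mem a b, S.add_mem ha hb⟩
        zero_mem' := ⟨L.zero_mem, S.zero_mem⟩
        smul_mem' := fun r y ⟨a, ha⟩ => ⟨L.smul_mem r a, by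
          have := S.smul_mem (Λ.π r) ha
          rwa [hLsm] at this⟩ }
    have hT : T ≠ ⊥ := fun eT => hne (S.eq_bot_iff.2 fun y hy => Subtype.ext (by
      have : (y : N) ∈ T := ⟨y.2, hy⟩
      rwa [eT, Submodule.mem_bot] at this))
    rw [Submodule.eq_top_iff']
    rintro ⟨y, hy⟩
    obtain ⟨x, hx⟩ := hLmem.1 hy
    obtain ⟨_, h'⟩ := hx ▸ hquot T (fun g y ⟨a, ha⟩ => ⟨hL g y a, hS g _ ha⟩) hT x
    exact h')
  -- reduced doubling
  let D : N →+ (Fin 4 → F) :=
    { toFun := fun x => e ⟨(2 : R) • x, hLmem.2 ⟨x, rfl⟩⟩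
      map_zero' := by
        rw [← map_zero e]; congr 1; exact Subtype.ext (smul_zero _)
      map_add' := fun x y => by
        rw [← map_add]; congr 1; exact Subtype.ext (smul_add _ _ _) }
  have hDa : ∀ x, D x = e ⟨(2 : R) • x, hLmem.2 ⟨x, rfl⟩⟩ := fun _ => rfl
  have hD0 : ∀ x, D x = 0 ↔ (2 : R) • x = 0 := fun x => by
    rw [hDa, LinearEquiv.map_eq_zero_iff]
    exact ⟨fun q => congrArg Subtype.val q, fun q => Subtype.ext q⟩
  have hDsurj : Function.Surjective D := fun w => by
    obtain ⟨x, hx⟩ := hLmem.1 (e.symm w).2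
    refine ⟨x, ?_⟩
    rw [hDa, ← e.apply_symm_apply w]
    congr 1
    exact Subtype.ext hx
  have hDsm : ∀ (r : R) x, D (r • x) = Λ.π r • D x := fun r x => by
    rw [hDa, hDa, ← map_smul, hLsm]
    congr 1
    exact Subtype.ext (smul_comm _ _ _)
  have hDg : ∀ g x, D (ρ g x) = natM σ g *ᵥ D x := fun g x => by
    rw [hDa, hDa, ← he]
    congr 1
    exact Subtype.ext (map_smul _ _ _).symm
  -- the kernel of doubling equals its image
  have hKL : ∀ x, (2 : R) • x = 0 → x ∈ L := by
    by_contra hc
    push Not at hc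
    obtain ⟨z, hz, hzL⟩ := hc
    let K : Submodule R N := LinearMap.ker ((2 : R) • (LinearMap.id : N →ₗ[R] N))
    have hKmem : ∀ {y}, y ∈ K ↔ (2 : R) • y = 0 := fun {y} => by simp [K]
    let good : Set (Submodule R N) := {S | (∀ g, ∀ x ∈ S, ρ g x ∈ S) ∧ L ≤ S ∧ S < K}
    haveI : Finite (Submodule R N) := Finite.of_injective (fun S => (S : Set N)) SetLike.coe_injective
    have hLK : L ≤ K := fun y hy => hKmem.2 (hsub L hL hLtop y hy)
    obtain ⟨T, ⟨hTi, hLT, hTK⟩, hTmax⟩ := (Set.toFinite good).exists_maximal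
      ⟨L, hL, le_rfl, lt_of_le_of_ne hLK fun e => hzL (e ▸ hKmem.2 hz)⟩
    have hV2 : ∀ v : N ⧸ T, (2 : R) • v = 0 := fun v => by
      obtain ⟨y, rfl⟩ := Submodule.Quotient.mk_surjective T v
      rw [← Submodule.Quotient.mk_smul, Submodule.Quotient.mk_eq_zero]
      exact hLT (hLmem.2 ⟨y, rfl⟩)
    letI : Module F (N ⧸ T) := Λ.modF (N ⧸ T) hV2
    have hVsm : ∀ (r : R) (v : N ⧸ T), Λ.π r • v = r • v := Λ.modF_smul hV2
    haveI : Finite (N ⧸ T) := Finite.of_surjective _ T.mkQ_surjective
    let ρV : Representation F (Cfsg.Sz F m) (N ⧸ T) :=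
      { toFun := fun g =>
          { toFun := fun v => T.mapQ T (ρ g) (hTi g) v
            map_add' := fun v v' => map_add _ v v'
            map_smul' := fun c v => by
              obtain ⟨r, rfl⟩ := Λ.surj c
              rw [RingHom.id_apply, hVsm, hVsm, map_smul] }
        map_one' := by
          refine LinearMap.ext fun v => ?_
          obtain ⟨y, rfl⟩ := Submodule.Quotient.mk_surjective T v
          simp
        map_mul' := fun g g' => by
          refine LinearMap.ext fun v => ?_
          obtain ⟨y, rfl⟩ := Submodule.Quotient.mk_surjective T v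
          simp [Module.End.mul_apply] }
    have hρV : ∀ g y, ρV g (Submodule.Quotient.mk y) = Submodule.Quotient.mk (ρ g y) := fun _ _ => rfl
    let q : (N ⧸ T) →ₗ[F] (Fin 4 → F) :=
      { toFun := fun v => Quotient.liftOn' v D fun a b hab => by
          rw [← sub_eq_zero, ← map_sub, hD0]
          exact hKmem.1 (hTK.le ((Submodule.quotientRel_def T).1 hab))
        map_add' := fun v w => by
          obtain ⟨a, rfl⟩ := Submodule.Quotient.mk_surjective T v
          obtain ⟨b, rfl⟩ := Submodule.Quotient.mk_surjective T w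
          exact map_add D a b
        map_smul' := fun c v => by
          obtain ⟨r, rfl⟩ := Λ.surj c
          obtain ⟨a, rfl⟩ := Submodule.Quotient.mk_surjective T v
          rw [hVsm]
          exact hDsm r a }
    have hqmk : ∀ y, q (Submodule.Quotient.mk y) = D y := fun _ => rfl
    have hV5 : h.Five fun g v => ρV g v := fun v => by
      obtain ⟨y, rfl⟩ := Submodule.Quotient.mk_surjective T v
      simp only [hρV, ← Submodule.Quotient.mk_add, h5 y, Submodule.Quotient.mk_zero]
    have hWi : ∀ g, ∀ v ∈ LinearMap.ker q, ρV g v ∈ LinearMap.ker q := fun g v hv => by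
      obtain ⟨y, rfl⟩ := Submodule.Quotient.mk_surjective T v
      rw [LinearMap.mem_ker, hqmk] at hv
      rw [LinearMap.mem_ker, hρV, hqmk, hDg, hv, Matrix.mulVec_zero]
    obtain ⟨k, hkK, hkT⟩ := SetLike.exists_of_lt hTK
    haveI : Finite (LinearMap.ker q) := Finite.of_injective _ (LinearMap.ker q).subtype_injective
    haveI : Nontrivial (LinearMap.ker q) := nontrivial_of_ne
      ⟨Submodule.Quotient.mk k, by rw [LinearMap.mem_ker, hqmk, hD0]; exact hKmem.1 hkK⟩ 0
      (fun e' => hkT ((Submodule.Quotient.mk_eq_zero T).1 (congrArg Subtype.val e')))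
    obtain ⟨τ, eW, heW⟩ := h.irreducible_natural (ρ := subRep ρV (LinearMap.ker q) hWi)
      (h.five_sub hV5 _ hWi) (fun S hS hne => by
        let SV : Submodule F (N ⧸ T) := S.map (LinearMap.ker q).subtype
        let S' : Submodule R N :=
          { carrier := {y | Submodule.Quotient.mk y ∈ SV}
            add_mem' := fun a b => by
              show Submodule.Quotient.mk _ ∈ SV
              rw [Submodule.Quotient.mk_add]; exact SV.add_mem a b
            zero_mem' := SV.zero_mem
            smul_mem' := fun r y a => by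
              show Submodule.Quotient.mk _ ∈ SV
              rw [Submodule.Quotient.mk_smul, ← hVsm]; exact SV.smul_mem _ a }
        have hTS : T ≤ S' := fun y hy => by
          show Submodule.Quotient.mk y ∈ SV
          rw [(Submodule.Quotient.mk_eq_zero T).2 hy]
          exact SV.zero_mem
        have hS'K : S' ≤ K := fun y hy => by
          obtain ⟨v, -, hv⟩ := Submodule.mem_map.1 hy
          have := v.2
          rw [LinearMap.mem_ker, show (v : N ⧸ T) = Submodule.Quotient.mk y from hv, hqmk, hD0] at this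
          exact hKmem.2 this
        have hS'i : ∀ g, ∀ y ∈ S', ρ g y ∈ S' := fun g y hy => by
          obtain ⟨v, hvS, hv⟩ := Submodule.mem_map.1 hy
          show Submodule.Quotient.mk (ρ g y) ∈ SV
          refine Submodule.mem_map.2 ⟨_, hS g v hvS, ?_⟩
          rw [← hρV, ← hv]
          rfl
        have hS'ne : S' ≠ T := fun e' => hne (S.eq_bot_iff.2 fun v hv => by
          obtain ⟨y, hy⟩ := Submodule.Quotient.mk_surjective T v.1
          have hyS : y ∈ S' := Submodule.mem_map.2 ⟨v, hv, hy.symm⟩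
          rw [e'] at hyS
          exact Subtype.ext (by rw [← hy]; exact (Submodule.Quotient.mk_eq_zero T).2 hyS))
        have hS'top : S' = K := by
          by_contra hne'
          exact hS'ne (le_antisymm (hTmax ⟨hS'i, hLT.trans hTS, lt_of_le_of_ne hS'K hne'⟩ hTS) hTS)
        rw [Submodule.eq_top_iff']
        intro v
        obtain ⟨y, hy⟩ := Submodule.Quotient.mk_surjective T v.1
        have hyK : y ∈ K := hKmem.2 (by
          have := v.2
          rwa [← hy, LinearMap.mem_ker, hqmk, hD0] at this)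
        rw [← hS'top] at hyK
        obtain ⟨v', hv', hvv⟩ := Submodule.mem_map.1 hyK
        rwa [show v = v' from Subtype.ext (hy.symm.trans hvv.symm)])
    obtain ⟨S, hSi, hStop, v, hvS, hqv⟩ := h.exists_proper (ρ := ρV) (σ := σ) (τ := τ)
      ((LinearMap.ker q).subtype.comp eW.symm.toLinearMap) q
      ((LinearMap.ker q).subtype_injective.comp eW.symm.injective)
      (fun w => by
        obtain ⟨y, hy⟩ := hDsurj w
        exact ⟨Submodule.Quotient.mk y, by rw [hqmk, hy]⟩)
      (fun v => ⟨fun hv => ⟨eW ⟨v, hv⟩, by simp⟩, by rintro ⟨w, rfl⟩; exact (eW.symm w).2⟩)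
      (fun g w => by
        have : subRep ρV (LinearMap.ker q) hWi g (eW.symm w) = eW.symm (natM τ g *ᵥ w) :=
          eW.injective (by rw [heW, eW.apply_symm_apply, eW.apply_symm_apply])
        exact congrArg Subtype.val this)
      (fun g v => by
        obtain ⟨y, rfl⟩ := Submodule.Quotient.mk_surjective T v
        rw [hρV, hqmk, hqmk, hDg])
    let S' : Submodule R N :=
      { carrier := {y | Submodule.Quotient.mk y ∈ S}
        add_mem' := fun a b => by
          show Submodule.Quotient.mk _ ∈ S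
          rw [Submodule.Quotient.mk_add]; exact S.add_mem a b
        zero_mem' := S.zero_mem
        smul_mem' := fun r y a => by
          show Submodule.Quotient.mk _ ∈ S
          rw [Submodule.Quotient.mk_smul, ← hVsm]; exact S.smul_mem _ a }
    obtain ⟨y, rfl⟩ := Submodule.Quotient.mk_surjective T v
    refine hqv ?_
    rw [hqmk, hD0]
    refine hsub S' (fun g y hy => ?_) (fun e' => hStop ?_) y hvS
    · show Submodule.Quotient.mk _ ∈ S
      rw [← hρV]
      exact hSi g _ hy
    · rw [Submodule.eq_top_iff']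
      intro v
      obtain ⟨z, rfl⟩ := Submodule.Quotient.mk_surjective T v
      show z ∈ S'
      rw [e']
      trivial
  -- the kernel as a natural module
  let iL : (Fin 4 → F) →+ N :=
    { toFun := fun w => (e.symm w : N)
      map_zero' := by rw [map_zero]; rfl
      map_add' := fun w w' => by rw [map_add]; rfl }
  have hiLinj : Function.Injective iL := fun w w' q => e.symm.injective (Subtype.ext q)
  have hiL2 : ∀ x, (2 : R) • x = iL (D x) := fun x => by
    show _ = ((e.symm (D x) : L) : N)
    rw [hDa, e.symm_apply_apply]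
  have hiLsm : ∀ (r : R) w, r • iL w = iL (Λ.π r • w) := fun r w => by
    show r • ((e.symm w : L) : N) = ((e.symm (Λ.π r • w) : L) : N)
    rw [map_smul, hLsm]
    rfl
  have hiLg : ∀ g w, ρ g (iL w) = iL (natM σ g *ᵥ w) := fun g w => by
    have : ρL g (e.symm w) = e.symm (natM σ g *ᵥ w) :=
      e.injective (by rw [he, e.apply_symm_apply, e.apply_symm_apply])
    exact congrArg Subtype.val this
  have hiLadd : ∀ w, iL w + iL w = 0 := fun w => by
    rw [← map_add, h.vadd_self, map_zero]
  have hpre : ∀ {x y}, D x = D y → ∃ w, x = y + iL w := fun {x y} exy => by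
    have : x - y ∈ L := hKL _ ((hD0 _).1 (by rw [map_sub, exy, sub_self]))
    refine ⟨e ⟨x - y, this⟩, ?_⟩
    show x = y + ((e.symm (e ⟨x - y, this⟩) : L) : N)
    rw [e.symm_apply_apply]
    simp
  -- a fixed lift
  haveI : Fintype Fˣ := Fintype.ofFinite _
  obtain ⟨x, hx⟩ := hDsurj (Pi.single 0 1)
  let v := ∑ s : Fˣ, h.tm Λ (wt m σ s 0)⁻¹ • ρ (h.d s) x
  have hvd : ∀ t, ρ (h.d t) v = h.tm Λ (wt m σ t 0) • v := fun t => by
    simp only [v, map_sum, Finset.smul_sum, map_smul]
    refine Fintype.sum_equiv (Equiv.mulLeft t) _ _ fun s => ?_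
    rw [Equiv.coe_mulLeft, hρc, h.d_mul, smul_smul, ← h.tm_mul Λ, h.wt_mul, mul_inv, ← mul_assoc,
      mul_inv_cancel₀ (h.wt_ne_zero σ t 0), one_mul]
  have hvD : D v = Pi.single 0 1 := by
    have : ∀ s : Fˣ, D (h.tm Λ (wt m σ s 0)⁻¹ • ρ (h.d s) x) = Pi.single 0 1 := fun s => by
      rw [hDsm, hDg, h.natM_d, hx, h.pi_tm]
      funext k
      rcases eq_or_ne k 0 with rfl | hk
      · simp [h.wt_ne_zero σ s 0]
      · simp [hk]
    rw [map_sum, Finset.sum_congr rfl fun s _ => this s, Finset.sum_const, Finset.card_univ]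
    obtain ⟨k, hk⟩ := h.card_units_odd
    rw [← Nat.card_eq_fintype_card, hk, add_smul, one_smul, mul_smul, two_smul, h.vadd_self, zero_add]
  have hw : ∀ a b, ∃ w, ρ (h.u a b) v = v + iL w := fun a b => hpre (by
    rw [hDg, hvD, h.natM_u]
    funext k
    fin_cases k <;> simp [uT, uMat])
  choose δ hδ using hw
  have hcoc : Cocycle m σ (fun t => wt m σ t 0) δ := by
    refine ⟨fun a b c e => hiLinj ?_, fun t => h.wt_ne_zero σ t 0, fun t a b k => ?_⟩
    · have e1 := hδ (a + c) (b + e + th m a * c)
      rw [← h.u_mul, map_mul, Module.End.mul_apply, hδ c e, map_add, hδ a b, hiLg, h.natM_u] at e1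
      rw [map_add]
      exact (add_left_cancel ((add_assoc _ _ _).symm.trans e1)).symm
    · have e1 : ρ (h.u (kap m t * a) (th m (kap m t) * kap m t * b)) (ρ (h.d t) v) =
          ρ (h.d t) (ρ (h.u a b) v) := by
        rw [hρc, hρc, ← h.d_u, inv_mul_cancel_right]
      rw [hvd, map_smul, hδ, hδ, map_add, hvd, smul_add, hiLsm, h.pi_tm, hiLg, h.natM_d] at e1
      have e2 := congrFun (hiLinj (add_left_cancel e1)) k
      simpa using e2
  obtain ⟨w, c, π, hw, hcπ, hnf⟩ := h.cocycle_normal hcoc (h.wt_zero_ne_one σ)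
  have hc0 : c = 0 := by
    by_contra hne
    refine h.endo_not_const (α := π) fun z hz => ?_
    obtain ⟨t, ht⟩ := h.exists_kap hz
    rw [← ht]
    exact mul_left_cancel₀ (h.wt_ne_zero σ t 0) (by rw [mul_one]; exact hcπ hne t)
  set v0 := v + iL w with hv0
  have hv0D : D v0 = Pi.single 0 1 := by
    have : D (iL w) = 0 := (hD0 _).2 (hsub L hL hLtop _ (e.symm w).2)
    rw [hv0, map_add, hvD, this, add_zero]
  have hv0u : ∀ a b, ρ (h.u a b) v0 = v0 := fun a b => by
    have e1 := hnf a b
    rw [hc0, zero_mul, Pi.single_zero] at e1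
    have e2 : δ a b + uT m σ a b *ᵥ w = w := by
      rw [← sub_eq_zero, sub_eq_add_neg]
      funext i
      have := congrFun e1 i
      simp only [Pi.add_apply, Pi.neg_apply, Pi.zero_apply] at this ⊢
      rw [h.neg_eq]
      linear_combination this
    rw [hv0, map_add, hδ, hiLg, h.natM_u, add_assoc, ← map_add, e2]
  have h2v0 : (2 : R) • v0 = iL (Pi.single 0 1) := by rw [hiL2, hv0D]
  -- a lift of the third basis vector
  obtain ⟨x2, hx2⟩ := hDsurj (Pi.single 2 1)
  have hy : ∀ b, ∃ w, ρ (h.u 0 b) x2 = (h.tm Λ (σ b) • v0 + x2) + iL w := fun b => hpre (by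
    rw [hDg, hx2, h.natM_u, map_add, hDsm, h.pi_tm, hv0D, hx2]
    funext k
    fin_cases k <;> simp [uT, uMat])
  choose E hE using hy
  have hsq : ∀ b, b ≠ 0 → E b 2 = 1 := fun b hb => by
    have e1 : ρ (h.u 0 b) (ρ (h.u 0 b) x2) = x2 := by
      rw [hρc, h.u_mul, mul_zero, add_zero, add_zero, h.add_self, h.u_zero, map_one,
        Module.End.one_apply]
    rw [hE, map_add, map_add, map_smul, hv0u, hE, hiLg] at e1
    have e3 : h.tm Λ (σ b) • v0 + h.tm Λ (σ b) • v0 = iL (σ b • Pi.single 0 1) := by
      rw [← two_smul R, smul_comm, h2v0, hiLsm, h.pi_tm]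
    have e2 : iL (σ b • Pi.single 0 1 + (E b + natM σ (h.u 0 b) *ᵥ E b)) = iL 0 := by
      rw [map_zero, map_add, map_add, ← e3]
      linear_combination (norm := module) e1
    have r1 := congrFun (hiLinj e2) 1
    have r0 := congrFun (hiLinj e2) 0
    simp only [Pi.add_apply, Pi.smul_apply, h.natM_u, uT_mulVec_one, uT_mulVec_zero, th_zero, map_zero,
      zero_mul, add_zero, smul_eq_mul, fz_zero_left, Pi.zero_apply, Pi.single_eq_same, mul_one,
      Pi.single_eq_of_ne (show (1 : Fin 4) ≠ 0 by decide), mul_zero, zero_add] at r1 r0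
    have hb' : σ b ≠ 0 := (map_ne_zero σ).2 hb
    have r3 : E b 3 = 0 := by
      have : σ b * E b 3 = 0 := by linear_combination r1 - (E b 1) * h.two_eq_zero
      simpa [hb'] using this
    rw [r3, mul_zero, add_zero] at r0
    have : σ b * (1 + E b 2) = 0 := by linear_combination r0 - (E b 0) * h.two_eq_zero
    have h1 := (mul_eq_zero.1 this).resolve_left hb'
    exact (h.add_eq_zero_iff.1 h1).symm
  have hadd : ∀ b b', E (b + b') 2 = E b 2 + E b' 2 := fun b b' => by
    have e1 : ρ (h.u 0 b) (ρ (h.u 0 b') x2) = ρ (h.u 0 (b + b')) x2 := by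
      rw [hρc, h.u_mul, mul_zero, add_zero, add_zero]
    rw [hE, map_add, map_add, map_smul, hv0u, hE, hiLg, hE] at e1
    obtain ⟨s, hs⟩ := (Λ.ker (h.tm Λ (σ b') + h.tm Λ (σ b) - h.tm Λ (σ (b + b')))).1 (by
      rw [map_sub, map_add, h.pi_tm, h.pi_tm, h.pi_tm, map_add σ]; ring)
    have e3 : h.tm Λ (σ b') • v0 + h.tm Λ (σ b) • v0 =
        h.tm Λ (σ (b + b')) • v0 + iL (Λ.π s • Pi.single 0 1) := by
      rw [← add_smul, ← hiLsm, ← h2v0, smul_smul, ← add_smul, mul_comm s 2]
      congr 1
      linear_combination hs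
    have e2 : iL (Λ.π s • Pi.single 0 1 + (E b + natM σ (h.u 0 b) *ᵥ E b')) = iL (E (b + b')) := by
      rw [map_add, map_add]
      linear_combination (norm := module) e1 - e3
    have r2 := congrFun (hiLinj e2) 2
    simp only [Pi.add_apply, Pi.smul_apply, h.natM_u, uT_mulVec_two, map_zero, zero_mul, add_zero,
      smul_eq_mul, Pi.single_eq_of_ne (show (2 : Fin 4) ≠ 0 by decide), mul_zero, zero_add] at r2
    exact r2.symm
  obtain ⟨r, hr0, hr1⟩ := h.exists_ne_zero_one
  have hr : r + 1 ≠ 0 := fun q => hr1 (h.add_eq_zero_iff.1 q)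
  have := hadd r 1
  rw [hsq _ hr, hsq r hr0, hsq 1 one_ne_zero, h.add_self] at this
  exact one_ne_zero this

end Hyp

end CfsgLib.Suzuki
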