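import Cfsg.Agent.Lib.SuzukiModule.Bilinear
import Cfsg.Agent.Lib.SuzukiModule.Exponent

/-!
A 2-group extended by a Suzuki group, with an element of order five acting without fixed points,
is elementary abelian.
-/

set_option autoImplicit false
set_option linter.unusedSectionVars false

namespace CfsgLib.Suzuki

open scoped TensorProduct IsMulCommutative

universe u

variable {F : Type*} [Field F] {m : ℕ}

namespace Hyp

variable (h : Hyp F m)
include h

set_option maxHeartbeats 1600000 in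
theorem five_powers :
    h.u 0 1 * h.w * (h.u 0 1 * h.w) = h.u 1 1 * h.w * h.u 1 1 ∧
    h.u 0 1 * h.w * (h.u 1 1 * h.w * h.u 1 1) = h.u 1 0 * h.w * h.u 1 0 ∧
    h.u 0 1 * h.w * (h.u 1 0 * h.w * h.u 1 0) = h.w * h.u 0 1 := by
  have p1 : ((h.u 0 1 * h.w : Cfsg.Sz F m) : Matrix.SpecialLinearGroup (Fin 4) F).val =
      !![1, 1, 0, 1; 1, 0, 1, 0; 0, 1, 0, 0; 1, 0, 0, 0] := by
    ext i j
    fin_cases i <;> fin_cases j <;> simp [Hyp.u, Hyp.w, uMat, fz, Cfsg.suzukiForm]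
  have p2 : ((h.w * h.u 0 1 : Cfsg.Sz F m) : Matrix.SpecialLinearGroup (Fin 4) F).val =
      !![0, 0, 0, 1; 0, 0, 1, 0; 0, 1, 0, 1; 1, 0, 1, 1] := by
    ext i j
    fin_cases i <;> fin_cases j <;> simp [Hyp.u, Hyp.w, uMat, fz, Cfsg.suzukiForm]
  have p3 : ((h.u 1 0 * h.w * h.u 1 0 : Cfsg.Sz F m) : Matrix.SpecialLinearGroup (Fin 4) F).val =
      !![1, 0, 1, 1; 0, 1, 0, 1; 1, 0, 0, 1; 1, 1, 1, 1] := by
    ext i j
    fin_cases i <;> fin_cases j <;>
      simp [Hyp.u, Hyp.w, uMat, fz, Cfsg.suzukiForm, h.add_self]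
  have p4 : ((h.u 1 1 * h.w * h.u 1 1 : Cfsg.Sz F m) : Matrix.SpecialLinearGroup (Fin 4) F).val =
      !![1, 1, 1, 1; 1, 0, 0, 1; 1, 0, 1, 0; 1, 1, 0, 1] := by
    ext i j
    fin_cases i <;> fin_cases j <;>
      simp [Hyp.u, Hyp.w, uMat, fz, Cfsg.suzukiForm, h.add_self]
  have key : ∀ a b c : Cfsg.Sz F m, (a : Matrix.SpecialLinearGroup (Fin 4) F).val *
      (b : Matrix.SpecialLinearGroup (Fin 4) F).val = (c : Matrix.SpecialLinearGroup (Fin 4) F).val → a * b = c :=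
    fun a b c e => Subtype.ext (Subtype.ext e)
  refine ⟨key _ _ _ ?_, key _ _ _ ?_, key _ _ _ ?_⟩
  · rw [p1, p4]; ext i j; fin_cases i <;> fin_cases j <;> simp [h.add_self]
  · rw [p1, p4, p3]; ext i j; fin_cases i <;> fin_cases j <;> simp [h.add_self]
  · rw [p1, p3, p2]; ext i j; fin_cases i <;> fin_cases j <;> simp [h.add_self]

/-- Absence of fixed points for an element of order five gives the five-term identity. -/
theorem five_of_fpf {R A : Type*} [CommRing R] [AddCommGroup A] [Module R A]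
    (a : Cfsg.Sz F m →* Module.End R A) (hfix : ∀ x, a (h.u 0 1 * h.w) x = x → x = 0) :
    h.Five fun g x => a g x := fun x => by
  obtain ⟨e1, e2, e3⟩ := h.five_powers
  obtain ⟨i1, -, -, -⟩ := h.five_points_inv
  have hc : ∀ g g' y, a g (a g' y) = a (g * g') y := fun g g' y => by rw [map_mul, Module.End.mul_apply]
  apply hfix
  simp only [map_add, hc, e1, e2, e3, ← i1, mul_inv_cancel, map_one, Module.End.one_apply]
  abel

end Hyp

/-- The action on an abelian normal subgroup centralised by `E`. -/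
def actOn {H : Type*} [Group H] (E : Subgroup H) [E.Normal] (φ : H ⧸ E ≃* Cfsg.Sz F m) (k : ℕ)
    (N : Subgroup H) [N.Normal] [hN : IsMulCommutative N] (hc : ∀ e ∈ E, ∀ z ∈ N, e * z = z * e)
    [Module (ZMod k) (Additive N)] : Cfsg.Sz F m →* Module.End (ZMod k) (Additive N) :=
  let f : H ⧸ E →* MulAut N := QuotientGroup.lift E MulAut.conjNormal fun e he =>
    MulEquiv.ext fun z => Subtype.ext (by
      rw [MulAut.conjNormal_apply]
      exact mul_inv_eq_iff_eq_mul.2 (hc e he z z.2))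
  { toFun := fun s => (AddMonoidHom.toZModLinearMap k
      (MonoidHom.toAdditive (f (φ.symm s)).toMonoidHom))
    map_one' := by ext z; simp
    map_mul' := fun s t => by ext z; simp [Module.End.mul_apply, MulAut.mul_apply] }

theorem actOn_apply {H : Type*} [Group H] (E : Subgroup H) [E.Normal] (φ : H ⧸ E ≃* Cfsg.Sz F m) (k : ℕ)
    (N : Subgroup H) [N.Normal] [IsMulCommutative N] (hc : ∀ e ∈ E, ∀ z ∈ N, e * z = z * e)
    [Module (ZMod k) (Additive N)] (g : H) (z : N) :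
    ((Additive.toMul (actOn E φ k N hc (φ (QuotientGroup.mk g)) (Additive.ofMul z)) : N) : H) =
      g * (z : H) * g⁻¹ := by
  simp [actOn]
  rfl

namespace Hyp

variable (h : Hyp F m)
include h

theorem five_actOn {H : Type*} [Group H] (E : Subgroup H) [E.Normal] (φ : H ⧸ E ≃* Cfsg.Sz F m) (k : ℕ)
    (N : Subgroup H) [N.Normal] [IsMulCommutative N] (hc : ∀ e ∈ E, ∀ z ∈ N, e * z = z * e)
    [Module (ZMod k) (Additive N)] {x : H} (hx : φ (QuotientGroup.mk x) = h.u 0 1 * h.w)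
    (hfix : ∀ q ∈ N, x * q * x⁻¹ = q → q = 1) : h.Five fun g y => actOn E φ k N hc g y :=
  h.five_of_fpf (actOn E φ k N hc) fun y hy => by
    obtain ⟨z, rfl⟩ := Additive.ofMul.surjective y
    rw [← hx] at hy
    have e := actOn_apply E φ k N hc x z
    rw [hy] at e
    have hz : z = 1 := Subtype.ext (hfix z z.2 e.symm)
    rw [hz]
    rfl

/-- The main theorem on 2-groups extended by Suzuki groups. -/
theorem elementary_of_fpf (n : ℕ) : ∀ (H : Type u) [Group H] [Finite H] (E : Subgroup H) [E.Normal],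
    Nat.card H ≤ n → IsPGroup 2 E → ∀ (φ : H ⧸ E ≃* Cfsg.Sz F m) (x : H),
    φ (QuotientGroup.mk x) = h.u 0 1 * h.w → (∀ q ∈ E, x * q * x⁻¹ = q → q = 1) →
    ∀ a ∈ E, a * a = 1 ∧ ∀ b ∈ E, a * b = b * a := by
  induction n using Nat.strong_induction_on with
  | _ n ih =>
  intro H _ _ E hEn hn hE φ x hx hfix
  classical
  have : Fact (Nat.Prime 2) := ⟨Nat.prime_two⟩
  rcases eq_or_ne E ⊥ with rfl | hne
  · intro a ha
    rw [Subgroup.mem_bot.1 ha]
    simp
  -- a minimal normal subgroup in the centre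
  set C := E ⊓ Subgroup.centralizer (E : Set H) with hC
  have hCn : C.Normal := by rw [hC]; infer_instance
  have hCne : C ≠ ⊥ := by
    haveI : Nontrivial E := (Subgroup.nontrivial_iff_ne_bot E).2 hne
    haveI := hE.center_nontrivial
    obtain ⟨c, hc1⟩ := exists_ne (1 : Subgroup.center E)
    intro e
    have : ((c : E) : H) ∈ C := ⟨(c : E).2, Subgroup.mem_centralizer_iff.2 fun b hb =>
      congrArg Subtype.val (Subgroup.mem_center_iff.1 c.2 ⟨b, hb⟩)⟩
    rw [e, Subgroup.mem_bot] at this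
    exact hc1 (Subtype.ext (Subtype.ext this))
  haveI : Finite (Subgroup H) := Finite.of_injective (fun S => (S : Set H)) SetLike.coe_injective
  obtain ⟨N, ⟨hNn, hNC, hNne⟩, hmin⟩ := (Set.toFinite {S : Subgroup H | S.Normal ∧ S ≤ C ∧ S ≠ ⊥}).exists_minimal
    ⟨C, hCn, le_rfl, hCne⟩
  haveI := hNn
  have hNE : N ≤ E := hNC.trans inf_le_left
  have hcN : ∀ e ∈ E, ∀ z ∈ N, e * z = z * e := fun e he z hz =>
    Subgroup.mem_centralizer_iff.1 (hNC hz).2 e he
  haveI hNcomm : IsMulCommutative N := ⟨⟨fun a b => Subtype.ext (hcN a (hNE a.2) b b.2)⟩⟩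
  have hN2 : ∀ z ∈ N, z * z = 1 := by
    let Ω : Subgroup H :=
      { carrier := {z | z ∈ N ∧ z * z = 1}
        one_mem' := ⟨N.one_mem, one_mul 1⟩
        mul_mem' := fun {a b} ha hb => ⟨N.mul_mem ha.1 hb.1, by
          have := hcN b (hNE hb.1) a ha.1
          calc a * b * (a * b) = a * (b * a) * b := by group
            _ = a * (a * b) * b := by rw [this]
            _ = (a * a) * (b * b) := by group
            _ = 1 := by rw [ha.2, hb.2, one_mul]⟩
        inv_mem' := fun {a} ha => ⟨N.inv_mem ha.1, by rw [← _root_.mul_inv_rev, ha.2, inv_one]⟩ }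
    have hΩn : Ω.Normal := ⟨fun z hz g => ⟨hNn.conj_mem z hz.1 g, by
      calc g * z * g⁻¹ * (g * z * g⁻¹) = g * (z * z) * g⁻¹ := by group
        _ = 1 := by rw [hz.2]; group⟩⟩
    have hΩne : Ω ≠ ⊥ := by
      haveI : Nontrivial N := (Subgroup.nontrivial_iff_ne_bot N).2 hNne
      obtain ⟨k, hk, hcard⟩ := (hE.to_le hNE).nontrivial_iff_card.1 inferInstance
      obtain ⟨c, hc⟩ := exists_prime_orderOf_dvd_card' (G := N) 2 (hcard ▸ dvd_pow_self 2 hk.ne')
      intro e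
      have hc' : (c : H) ∈ Ω := ⟨c.2, by
        have h1 := pow_orderOf_eq_one (c : H)
        rwa [Subgroup.orderOf_coe, hc, pow_two] at h1⟩
      rw [e, Subgroup.mem_bot] at hc'
      rw [OneMemClass.coe_eq_one.1 hc', orderOf_one] at hc
      omega
    intro z hz
    exact (hmin ⟨hΩn, fun z hz => hNC hz.1, hΩne⟩ (fun z hz => hz.1) hz).2
  -- the quotient
  let π := QuotientGroup.mk' N
  set E1 := E.map π with hE1
  haveI : E1.Normal := hEn.map π (QuotientGroup.mk'_surjective N)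
  have hcard : Nat.card (H ⧸ N) < n := lt_of_lt_of_le (by
    rw [N.card_eq_card_quotient_mul_card_subgroup]
    haveI : Nontrivial N := (Subgroup.nontrivial_iff_ne_bot N).2 hNne
    have h1 : 1 < Nat.card N := Finite.one_lt_card
    have h2 : 0 < Nat.card (H ⧸ N) := Nat.card_pos
    nlinarith) hn
  let φ1 : (H ⧸ N) ⧸ E1 ≃* Cfsg.Sz F m :=
    (QuotientGroup.quotientQuotientEquivQuotient N E hNE).trans φ
  have hφ1 : ∀ g : H, φ1 (QuotientGroup.mk (π g)) = φ (QuotientGroup.mk g) := fun g => rfl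
  have hinj : Function.Injective (fun z : N => (⟨x * z * x⁻¹ * (z : H)⁻¹,
      N.mul_mem (hNn.conj_mem _ z.2 x) (N.inv_mem z.2)⟩ : N)) := by
    intro a b e
    have e' : x * a * x⁻¹ * (a : H)⁻¹ = x * b * x⁻¹ * (b : H)⁻¹ := congrArg Subtype.val e
    have hab : ((b : H)⁻¹ * a) ∈ N := N.mul_mem (N.inv_mem b.2) a.2
    have hfx : x * ((b : H)⁻¹ * a) * x⁻¹ = (b : H)⁻¹ * a := by
      have ea : x * a * x⁻¹ = x * b * x⁻¹ * (b : H)⁻¹ * a := by rw [← e']; group
      calc x * ((b : H)⁻¹ * a) * x⁻¹ = (x * b * x⁻¹)⁻¹ * (x * a * x⁻¹) := by group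
        _ = (x * b * x⁻¹)⁻¹ * (x * b * x⁻¹ * (b : H)⁻¹ * a) := by rw [ea]
        _ = (b : H)⁻¹ * a := by group
    exact Subtype.ext (inv_mul_eq_one.1 (hfix _ (hNE hab) hfx)).symm
  have hfix1 : ∀ q ∈ E1, π x * q * (π x)⁻¹ = q → q = 1 := by
    rintro _ ⟨a, ha, rfl⟩ he
    have hm : x * a * x⁻¹ * a⁻¹ ∈ N := by
      rw [← QuotientGroup.eq_one_iff]
      show π (x * a * x⁻¹ * a⁻¹) = 1
      rw [map_mul, map_mul, map_mul, map_inv, map_inv, he, mul_inv_cancel]
    obtain ⟨k, hk⟩ := (Finite.injective_iff_surjective.1 hinj) ⟨_, hm⟩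
    have hk' : x * k * x⁻¹ * (k : H)⁻¹ = x * a * x⁻¹ * a⁻¹ := congrArg Subtype.val hk
    have ea : x * a * x⁻¹ = x * k * x⁻¹ * (k : H)⁻¹ * a := by rw [hk']; group
    have hy : (k : H)⁻¹ * a = 1 := hfix _ (E.mul_mem (E.inv_mem (hNE k.2)) ha) (by
      calc x * ((k : H)⁻¹ * a) * x⁻¹ = (x * k * x⁻¹)⁻¹ * (x * a * x⁻¹) := by group
        _ = (x * k * x⁻¹)⁻¹ * (x * k * x⁻¹ * (k : H)⁻¹ * a) := by rw [ea]
        _ = (k : H)⁻¹ * a := by group)
    rw [show π a = 1 from (QuotientGroup.eq_one_iff a).2 (by rw [← inv_mul_eq_one.1 hy]; exact k.2)]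
  have hIH := ih _ hcard (H ⧸ N) E1 le_rfl (hE.map π) φ1 (π x) ((hφ1 x).trans hx) hfix1
  haveI hE1comm : IsMulCommutative E1 := ⟨⟨fun a b => Subtype.ext ((hIH a a.2).2 b b.2)⟩⟩
  -- the commutator form
  letI : Module (ZMod 2) (Additive E1) := AddCommGroup.zmodModule fun z => by
    rw [two_nsmul]
    exact Additive.toMul.injective (Subtype.ext (hIH _ (Additive.toMul z).2).1)
  letI : Module (ZMod 2) (Additive N) := AddCommGroup.zmodModule fun z => by
    rw [two_nsmul]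
    exact Additive.toMul.injective (Subtype.ext (hN2 _ (Additive.toMul z).2))
  have hlift : ∀ z : E1, ∃ a ∈ E, π a = z := fun z => Subgroup.mem_map.1 z.2
  choose l hlE hl using hlift
  have hCN : ∀ {a b : H}, a ∈ E → b ∈ E → a * b * a⁻¹ * b⁻¹ ∈ N := fun {a b} ha hb => by
    rw [← QuotientGroup.eq_one_iff]
    show π (a * b * a⁻¹ * b⁻¹) = 1
    rw [map_mul, map_mul, map_mul, map_inv, map_inv,
      (hIH (π a) (Subgroup.mem_map_of_mem π ha)).2 (π b) (Subgroup.mem_map_of_mem π hb)]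
    group
  have hwd : ∀ {a b a' b' : H}, a ∈ E → b ∈ E → a' ∈ E → b' ∈ E → π a = π a' → π b = π b' →
      a * b * a⁻¹ * b⁻¹ = a' * b' * a'⁻¹ * b'⁻¹ := fun {a b a' b'} ha hb ha' hb' ea eb => by
    have hza : a⁻¹ * a' ∈ N := QuotientGroup.eq.1 ea
    have hzb : b⁻¹ * b' ∈ N := QuotientGroup.eq.1 eb
    obtain ⟨z, hz, rfl⟩ : ∃ z ∈ N, a' = a * z := ⟨_, hza, by group⟩
    obtain ⟨y, hy, rfl⟩ : ∃ y ∈ N, b' = b * y := ⟨_, hzb, by group⟩
    have c1 : z * (b * y) = (b * y) * z := (hcN _ hb' z hz).symm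
    have c2 : y * a⁻¹ = a⁻¹ * y := (hcN _ (E.inv_mem ha) y hy).symm
    calc a * b * a⁻¹ * b⁻¹ = a * b * (a⁻¹ * y) * y⁻¹ * b⁻¹ := by group
      _ = a * b * (y * a⁻¹) * y⁻¹ * b⁻¹ := by rw [c2]
      _ = a * ((b * y) * z) * z⁻¹ * a⁻¹ * (b * y)⁻¹ := by group
      _ = a * (z * (b * y)) * z⁻¹ * a⁻¹ * (b * y)⁻¹ := by rw [c1]
      _ = a * z * (b * y) * (a * z)⁻¹ * (b * y)⁻¹ := by group
  have hmulL : ∀ {a a' b : H}, a ∈ E → a' ∈ E → b ∈ E →
      a * a' * b * (a * a')⁻¹ * b⁻¹ = (a * b * a⁻¹ * b⁻¹) * (a' * b * a'⁻¹ * b⁻¹) := fun {a a' b} ha ha' hb => by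
    have c := hcN (a * b * a⁻¹ * b⁻¹) (E.mul_mem (E.mul_mem (E.mul_mem ha hb) (E.inv_mem ha)) (E.inv_mem hb))
      _ (hCN ha' hb)
    have c' := hcN a ha _ (hCN ha' hb)
    calc a * a' * b * (a * a')⁻¹ * b⁻¹ = a * (a' * b * a'⁻¹ * b⁻¹) * (b * a⁻¹ * b⁻¹) := by group
      _ = (a' * b * a'⁻¹ * b⁻¹) * a * (b * a⁻¹ * b⁻¹) := by rw [c']
      _ = (a' * b * a'⁻¹ * b⁻¹) * (a * b * a⁻¹ * b⁻¹) := by group
      _ = _ := c.symm
  have hmulR : ∀ {a b b' : H}, a ∈ E → b ∈ E → b' ∈ E →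
      a * (b * b') * a⁻¹ * (b * b')⁻¹ = (a * b * a⁻¹ * b⁻¹) * (a * b' * a⁻¹ * b'⁻¹) := fun {a b b'} ha hb hb' => by
    have c' := hcN b hb _ (hCN ha hb')
    calc a * (b * b') * a⁻¹ * (b * b')⁻¹ = a * b * a⁻¹ * ((a * b' * a⁻¹ * b'⁻¹) * b⁻¹) := by group
      _ = a * b * a⁻¹ * (b⁻¹ * (b * (a * b' * a⁻¹ * b'⁻¹)) * b⁻¹) := by group
      _ = a * b * a⁻¹ * (b⁻¹ * ((a * b' * a⁻¹ * b'⁻¹) * b) * b⁻¹) := by rw [c']
      _ = _ := by group
  let comm : E1 → E1 → Additive N := fun z y =>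
    Additive.ofMul ⟨l z * l y * (l z)⁻¹ * (l y)⁻¹, hCN (hlE z) (hlE y)⟩
  let β : Additive E1 →ₗ[ZMod 2] Additive E1 →ₗ[ZMod 2] Additive N :=
    AddMonoidHom.toZModLinearMap 2
      { toFun := fun z => AddMonoidHom.toZModLinearMap 2 (AddMonoidHom.mk' (fun y => comm z.toMul y.toMul)
          fun y y' => Additive.toMul.injective (Subtype.ext (by
            refine (hwd (hlE _) (hlE _) (hlE z.toMul) (E.mul_mem (hlE y.toMul) (hlE y'.toMul)) rfl ?_).trans
              (hmulR (hlE _) (hlE _) (hlE _))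
            rw [map_mul, hl, hl, hl]; rfl)))
        map_zero' := LinearMap.ext fun y => Additive.toMul.injective (Subtype.ext (by
            refine (hwd (hlE _) (hlE _) E.one_mem (hlE y.toMul) (by rw [hl, map_one]; rfl) rfl).trans ?_
            simp))
        map_add' := fun z z' => LinearMap.ext fun y => Additive.toMul.injective (Subtype.ext (by
            refine (hwd (hlE _) (hlE _) (E.mul_mem (hlE z.toMul) (hlE z'.toMul)) (hlE y.toMul) ?_ rfl).trans
              (hmulL (hlE _) (hlE _) (hlE _))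
            rw [map_mul, hl, hl, hl]; rfl)) }
  have hβ0 : β = 0 := by
    refine h.bilinear_zero (actOn E1 φ1 2 E1 fun e he z hz => (hIH e he).2 z hz)
      (actOn E φ 2 N hcN) (h.five_actOn E1 φ1 2 E1 _ ((hφ1 x).trans hx) hfix1)
      (h.five_actOn E φ 2 N hcN hx fun q hq => hfix q (hNE hq)) β fun s z y => ?_
    obtain ⟨g, rfl⟩ : ∃ g, φ (QuotientGroup.mk g) = s := by
      obtain ⟨g, hg⟩ := QuotientGroup.mk_surjective (φ.symm s)
      exact ⟨g, by rw [hg, φ.apply_symm_apply]⟩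
    obtain ⟨z, rfl⟩ := Additive.ofMul.surjective z
    obtain ⟨y, rfl⟩ := Additive.ofMul.surjective y
    refine Additive.toMul.injective (Subtype.ext ?_)
    rw [show β (Additive.ofMul z) (Additive.ofMul y) = comm z y from rfl, actOn_apply]
    have key : ∀ z : E1, π (l (Additive.toMul (actOn E1 φ1 2 E1 (fun e he z hz => (hIH e he).2 z hz)
        (φ (QuotientGroup.mk g)) (Additive.ofMul z)))) = π (g * l z * g⁻¹) := fun z => by
      rw [hl, ← hφ1, actOn_apply, map_mul, map_mul, hl, map_inv]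
    show l _ * l _ * (l _)⁻¹ * (l _)⁻¹ = g * (l z * l y * (l z)⁻¹ * (l y)⁻¹) * g⁻¹
    rw [hwd (hlE _) (hlE _) (hEn.conj_mem _ (hlE z) g) (hEn.conj_mem _ (hlE y) g) (key z) (key y)]
    group
  have hcomm : ∀ a ∈ E, ∀ b ∈ E, a * b = b * a := fun a ha b hb => by
    have e := congrArg (fun z : Additive N => ((Additive.toMul z : N) : H))
      (LinearMap.congr_fun (LinearMap.congr_fun hβ0
        (Additive.ofMul ⟨π a, Subgroup.mem_map_of_mem π ha⟩)) (Additive.ofMul ⟨π b, Subgroup.mem_map_of_mem π hb⟩))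
    change l _ * l _ * (l _)⁻¹ * (l _)⁻¹ = 1 at e
    rw [hwd (hlE _) (hlE _) ha hb (hl _) (hl _)] at e
    calc a * b = (a * b * a⁻¹ * b⁻¹) * (b * a) := by group
      _ = b * a := by rw [e, one_mul]
  -- exponent two
  haveI hEcomm : IsMulCommutative E := ⟨⟨fun a b => Subtype.ext (hcomm a a.2 b b.2)⟩⟩
  have h4 : ∀ a : E, (a : H) * a * (a * a) = 1 := fun a => hN2 _ (by
    rw [← QuotientGroup.eq_one_iff]
    exact (hIH _ (Subgroup.mem_map_of_mem π a.2)).1)
  letI : Module (ZMod 4) (Additive E) := AddCommGroup.zmodModule fun z => by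
    rw [show (4 : ℕ) = 2 * 2 from rfl, mul_nsmul, two_nsmul, two_nsmul]
    exact Additive.toMul.injective (Subtype.ext (h4 (Additive.toMul z)))
  have := h.finite
  have := h.charP
  obtain ⟨R, _, _, ⟨Λ⟩⟩ := exists_lift4 F
  haveI := Λ.finite
  haveI : Finite R := Module.finite_of_finite (ZMod 4)
  haveI : Finite (R ⊗[ZMod 4] Additive E) := by
    have := Module.Finite.of_finite (R := ZMod 4) (M := Additive E)
    exact Module.finite_of_finite R
  let act := actOn E φ 4 E fun e he z hz => hcomm e he z hz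
  have h5 : h.Five fun g y => act g y := h.five_actOn E φ 4 E _ hx hfix
  let ρ : Representation R (Cfsg.Sz F m) (R ⊗[ZMod 4] Additive E) :=
    { toFun := fun g => (act g).baseChange R
      map_one' := by simp
      map_mul' := fun g g' => by rw [map_mul]; exact LinearMap.baseChange_comp _ _ }
  have h5R : h.Five fun g y => ρ g y := fun y => by
    induction y with
    | zero => simp
    | tmul c z =>
      show c ⊗ₜ z + c ⊗ₜ act _ z + c ⊗ₜ act _ z + c ⊗ₜ act _ z + c ⊗ₜ act _ z = 0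
      simp only [← TensorProduct.tmul_add]
      rw [h5 z, TensorProduct.tmul_zero]
    | add y z hy hz =>
      simp only [map_add]
      simp only at hy hz
      linear_combination (norm := abel) hy + hz
  intro a ha
  refine ⟨?_, fun b hb => hcomm a ha b hb⟩
  have e := h.two_smul_zero Λ _ (R ⊗[ZMod 4] Additive E) ρ h5R le_rfl
    (1 ⊗ₜ Additive.ofMul (⟨a, ha⟩ : E))
  rw [two_smul, ← TensorProduct.tmul_add] at e
  have := congrArg (fun z => TensorProduct.lid (ZMod 4) (Additive E) (Λ.ℓ.rTensor (Additive E) z)) e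
  simp only [LinearMap.rTensor_tmul, TensorProduct.lid_tmul, Λ.ℓ_one, one_smul, map_zero] at this
  exact congrArg (fun z : Additive E => ((Additive.toMul z : E) : H)) this

end Hyp

end CfsgLib.Suzuki
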