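import Cfsg.Agent.Lib.SuzukiModule.Cocycle
import Cfsg.Agent.Lib.Suzuki.Simple

/-!
The twisted natural modules of the Suzuki group and their Borel-equivariant extensions.
-/

set_option autoImplicit false
set_option linter.unusedSectionVars false

namespace CfsgLib.Suzuki

open Matrix

variable {F : Type*} [Field F] {m : ℕ}

/-- A twisted natural module, as a matrix representation. -/
def natM (σ : F →+* F) : Cfsg.Sz F m →* Matrix (Fin 4) (Fin 4) F where
  toFun g := ((g : Matrix.SpecialLinearGroup (Fin 4) F) : Matrix (Fin 4) (Fin 4) F).map σ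
  map_one' := by simp
  map_mul' g g' := by simp [Matrix.map_mul]

namespace Hyp

variable (h : Hyp F m)
include h

theorem natM_u (σ : F →+* F) (a b : F) : natM σ (h.u a b) = uT m σ a b := rfl

theorem natM_d (σ : F →+* F) (t : Fˣ) (v : Fin 4 → F) :
    natM σ (h.d t) *ᵥ v = fun i => wt m σ t i * v i := by
  funext i
  have e : natM σ (h.d t) = Matrix.diagonal (fun i => wt m σ t i) := by
    show (dMat m t).map σ = _
    rw [dMat, Matrix.diagonal_map (map_zero σ)]
    rfl
  rw [e, Matrix.mulVec_diagonal]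

theorem u_central (a b e : F) : h.u a b * h.u 0 e = h.u 0 e * h.u a b := by
  rw [h.u_mul, h.u_mul]
  simp [add_comm]

theorem wt_mul (σ : F →+* F) (s t : Fˣ) (i : Fin 4) :
    wt m σ (s * t) i = wt m σ s i * wt m σ t i := by
  rw [wt, wt, wt, ← map_mul]
  congr 1
  fin_cases i <;> simp [lamV, th_mul] <;> ring

theorem wt_ne_zero (σ : F →+* F) (t : Fˣ) (i : Fin 4) : wt m σ t i ≠ 0 := by
  rw [wt, map_ne_zero]
  fin_cases i <;> simp [lamV, th_eq_zero_iff]

theorem wt_zero_ne_one (σ : F →+* F) : ∃ t, wt m σ t 0 ≠ 1 := by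
  obtain ⟨x, hx0, hx1⟩ := h.exists_ne_zero_one
  obtain ⟨t, ht⟩ := h.exists_lam hx0
  exact ⟨t, fun e => hx1 (σ.injective (by rw [map_one, ← e, wt]; simp [lamV, ht]))⟩

/-- A borel-equivariant extension of one twisted natural module by another. -/
structure BExt {V : Type*} [AddCommGroup V] [Module F V] (ρ : Representation F (Cfsg.Sz F m) V)
    (σ τ : F →+* F) (i : (Fin 4 → F) →ₗ[F] V) (q : V →ₗ[F] (Fin 4 → F)) : Prop where
  inj : Function.Injective i
  surj : Function.Surjective q
  exact : ∀ x, q x = 0 ↔ ∃ w, i w = x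
  iu : ∀ a b w, ρ (h.u a b) (i w) = i (natM τ (h.u a b) *ᵥ w)
  id : ∀ t w, ρ (h.d t) (i w) = i (natM τ (h.d t) *ᵥ w)
  qu : ∀ a b x, q (ρ (h.u a b) x) = natM σ (h.u a b) *ᵥ q x
  qd : ∀ t x, q (ρ (h.d t) x) = natM σ (h.d t) *ᵥ q x

variable {V : Type*} [AddCommGroup V] [Module F V] {ρ : Representation F (Cfsg.Sz F m) V}
  {σ τ : F →+* F} {i : (Fin 4 → F) →ₗ[F] V} {q : V →ₗ[F] (Fin 4 → F)}

/-- Lifts of basis vectors can be chosen as weight vectors. -/
theorem exists_weight_lift (hE : h.BExt ρ σ τ i q) (j : Fin 4) :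
    ∃ v, (∀ t, ρ (h.d t) v = wt m σ t j • v) ∧ q v = Pi.single j 1 := by
  classical
  have := h.finite
  have : Fintype Fˣ := Fintype.ofFinite _
  obtain ⟨x, hx⟩ := hE.surj (Pi.single j 1)
  refine ⟨∑ s : Fˣ, (wt m σ s j)⁻¹ • ρ (h.d s) x, fun t => ?_, ?_⟩
  · rw [map_sum, Finset.smul_sum]
    refine Fintype.sum_equiv (Equiv.mulLeft t) _ _ fun s => ?_
    rw [map_smul, Equiv.coe_mulLeft, ← Module.End.mul_apply, ← map_mul, h.d_mul, smul_smul, h.wt_mul,
      mul_inv, ← mul_assoc, mul_inv_cancel₀ (h.wt_ne_zero σ t j), one_mul]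
  · rw [map_sum]
    have : ∀ s : Fˣ, q ((wt m σ s j)⁻¹ • ρ (h.d s) x) = Pi.single j 1 := fun s => by
      rw [map_smul, hE.qd, h.natM_d, hx]
      funext k
      rcases eq_or_ne k j with rfl | hk
      · simp [h.wt_ne_zero σ s k]
      · simp [hk]
    rw [Finset.sum_congr rfl fun s _ => this s, Finset.sum_const, Finset.card_univ]
    obtain ⟨k, hk⟩ := h.card_units_odd
    rw [← Nat.card_eq_fintype_card, hk, add_smul, one_smul, mul_smul, two_smul]
    funext r
    simp [h.add_self]

theorem vadd_self (x : V) : x + x = 0 := by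
  rw [← two_smul F x, h.two_eq_zero, zero_smul]

theorem exists_pre (hE : h.BExt ρ σ τ i q) {x y : V} (e : q x = q y) : ∃ w, x = y + i w := by
  obtain ⟨w, hw⟩ := (hE.exact (x + y)).1 (by
    rw [map_add, e, ← two_smul F, h.two_eq_zero, zero_smul])
  exact ⟨w, by rw [hw, add_left_comm, h.vadd_self, add_zero]⟩

/-- A fixed lift of the highest weight vector. -/
theorem exists_fixed_lift (hE : h.BExt ρ σ τ i q) :
    ∃ v, (∀ t, ρ (h.d t) v = wt m σ t 0 • v) ∧ (∀ a b, ρ (h.u a b) v = v) ∧ q v = Pi.single 0 1 := by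
  classical
  obtain ⟨v, hvw, hvq⟩ := h.exists_weight_lift hE 0
  have hw : ∀ a b, ∃ w, ρ (h.u a b) v = v + i w := fun a b => h.exists_pre hE (by
    rw [hE.qu, hvq, h.natM_u]
    funext k
    fin_cases k <;> simp [uT, uMat])
  choose δ hδ using hw
  have hcoc : Cocycle m τ (fun t => wt m σ t 0) δ := by
    refine ⟨fun a b c e => hE.inj ?_, fun t => h.wt_ne_zero σ t 0, fun t a b k => ?_⟩
    · have e1 := hδ (a + c) (b + e + th m a * c)
      rw [← h.u_mul, map_mul, Module.End.mul_apply, hδ c e, map_add, hδ a b, hE.iu, h.natM_u] at e1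
      rw [map_add]
      exact (add_left_cancel ((add_assoc _ _ _).symm.trans e1)).symm
    · have e1 : ρ (h.u (kap m t * a) (th m (kap m t) * kap m t * b)) (ρ (h.d t) v) =
          ρ (h.d t) (ρ (h.u a b) v) := by
        rw [← Module.End.mul_apply, ← map_mul, ← Module.End.mul_apply, ← map_mul, ← h.d_u,
          inv_mul_cancel_right]
      rw [hvw, map_smul, hδ, hδ, map_add, hvw, smul_add, hE.id, h.natM_d] at e1
      have e2 := congrFun (hE.inj ((map_smul i (wt m σ t 0) _).trans (add_left_cancel e1))) k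
      simpa using e2
  obtain ⟨w, c, π, hw, hc, hn⟩ := h.cocycle_normal hcoc (h.wt_zero_ne_one σ)
  obtain ⟨v0, hv0w, hv0q, hv0u⟩ : ∃ v0, (∀ t, ρ (h.d t) v0 = wt m σ t 0 • v0) ∧
      q v0 = Pi.single 0 1 ∧ ∀ a b, ρ (h.u a b) v0 = v0 + i (Pi.single 0 (c * π a)) := by
    refine ⟨v + i w, fun t => ?_, ?_, fun a b => ?_⟩
    · rw [map_add, hvw, hE.id, h.natM_d, smul_add, ← map_smul i]
      congr 2
      funext k
      exact hw t k
    · rw [map_add, hvq, (hE.exact _).2 ⟨w, rfl⟩, add_zero]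
    · rw [map_add, hδ, hE.iu, h.natM_u, ← hn a b, map_add, map_add]
      linear_combination (norm := module) -(h.vadd_self (i w))
  rcases eq_or_ne c 0 with rfl | hc0
  · exact ⟨v0, hv0w, fun a b => by rw [hv0u, zero_mul, Pi.single_zero, map_zero, add_zero], hv0q⟩
  exfalso
  -- the twists are related
  have hpair : ∀ x, (π.comp (h.thHom.comp h.thHom)) x * σ x = τ x * (π.comp h.thHom) x := by
    intro x
    rcases eq_or_ne x 0 with rfl | hx
    · simp
    obtain ⟨t, ht⟩ := h.exists_lam hx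
    have e := hc hc0 t
    simp only [wt, lamV, kap, Matrix.cons_val, ht] at e
    have e2 : th m (th m x) = th m (t : F) * th m x := by
      rw [h.th_th, ← ht, th_mul, h.th_th]; ring
    simp only [RingHom.comp_apply, thHom_apply, e2, map_mul]
    linear_combination (π (th m x)) * e
  rcases h.endo_pair hpair with ⟨hτ, hσ⟩ | ⟨hbad, -⟩
  swap
  · obtain ⟨x, hx0, hx1⟩ := h.exists_ne_zero_one
    have := π.injective (RingHom.congr_fun hbad x)
    simp only [RingHom.comp_apply, thHom_apply] at this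
    exact h.th_ne_self hx0 hx1 (h.th_injective this)
  have hσe : ∀ x, σ x = π (th m x) := fun x => by rw [hσ, RingHom.comp_apply, thHom_apply]
  have hτe : ∀ x, τ x = π (x * x) := fun x => by
    rw [← hτ, RingHom.comp_apply, RingHom.comp_apply, thHom_apply, thHom_apply, h.th_th, pow_two]
  -- weight lifts of two further basis vectors
  obtain ⟨v1, hv1w, hv1q⟩ := h.exists_weight_lift hE 1
  obtain ⟨v2, hv2w, hv2q⟩ := h.exists_weight_lift hE 2
  have hy1 : ∀ e, ∃ w, ρ (h.u 0 e) v1 = v1 + i w := fun e => h.exists_pre hE (by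
    rw [hE.qu, hv1q, h.natM_u]
    funext k
    fin_cases k <;> simp [uT, uMat])
  have hy2 : ∀ e, ∃ w, ρ (h.u 0 e) v2 = (σ e • v0 + v2) + i w := fun e => h.exists_pre hE (by
    rw [hE.qu, hv2q, h.natM_u, map_add, map_smul, hv0q, hv2q]
    funext k
    fin_cases k <;> simp [uT, uMat])
  obtain ⟨X, hX⟩ : ∃ w, ρ (h.u 1 1) v2 = (v1 + v2) + i w := h.exists_pre hE (by
    rw [hE.qu, hv2q, h.natM_u, map_add, hv1q, hv2q]
    funext k
    fin_cases k <;> simp [uT, uMat, h.add_self])
  choose D1 hD1 using hy1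
  choose D2 hD2 using hy2
  -- scaling of the correction terms
  have hdy : ∀ t e x, ρ (h.u 0 (th m (kap m t) * kap m t * e)) (ρ (h.d t) x) =
      ρ (h.d t) (ρ (h.u 0 e) x) := fun t e x => by
    rw [← Module.End.mul_apply, ← map_mul, ← Module.End.mul_apply, ← map_mul,
      ← inv_mul_cancel_right (h.d t * h.u 0 e) (h.d t), h.d_u, mul_zero]
  have hs1 : ∀ t e k, wt m σ t 1 * D1 (th m (kap m t) * kap m t * e) k = wt m τ t k * D1 e k :=
    fun t e k => by
    have e1 := hdy t e v1
    rw [hv1w, map_smul, hD1, hD1, map_add, hv1w, smul_add, hE.id, h.natM_d] at e1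
    simpa using congrFun (hE.inj ((map_smul i (wt m σ t 1) _).trans (add_left_cancel e1))) k
  have hs2 : ∀ t e k, wt m σ t 2 * D2 (th m (kap m t) * kap m t * e) k = wt m τ t k * D2 e k :=
    fun t e k => by
    have e1 := hdy t e v2
    have e3 : wt m σ t 2 * σ (th m (kap m t) * kap m t * e) = σ e * wt m σ t 0 := by
      simp only [wt, lamV, kap, h.th_th, Matrix.cons_val, ← map_mul]
      congr 1
      field_simp
    rw [hv2w, map_smul, hD2, hD2, map_add, map_add, map_smul, hv2w, hv0w, smul_add, smul_add, smul_smul,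
      smul_smul, e3, hE.id, h.natM_d] at e1
    simpa using congrFun (hE.inj ((map_smul i (wt m σ t 2) _).trans (add_left_cancel e1))) k
  have hD20 : ∀ e, e ≠ 0 → D1 e 0 = D1 1 0 * π e := fun e he => by
    obtain ⟨t, ht⟩ := h.surj_eps he
    refine mul_left_cancel₀ (h.wt_ne_zero σ t 1) ?_
    have e1 := hs1 t 1 0
    rw [mul_one, ht] at e1
    rw [e1, ← ht]
    simp only [wt, lamV, kap, Matrix.cons_val, hσe, hτe, h.th_th, map_mul, map_pow]
    ring
  have hD31 : ∀ e, e ≠ 0 → D2 e 1 = D2 1 1 * π e := fun e he => by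
    obtain ⟨t, ht⟩ := h.surj_eps he
    refine mul_left_cancel₀ (h.wt_ne_zero σ t 2) ?_
    have e1 := hs2 t 1 1
    rw [mul_one, ht] at e1
    rw [e1, ← ht]
    have hn : π (th m (t : F)) ≠ 0 := (map_ne_zero π).2 (th_ne_zero t.ne_zero)
    simp only [wt, lamV, kap, Matrix.cons_val, hσe, hτe, h.th_th, th_inv, map_mul, map_pow, map_inv₀]
    field_simp
  have hD33 : ∀ e, e ≠ 0 → D2 e 3 * π e = D2 1 3 := fun e he => by
    obtain ⟨t, ht⟩ := h.surj_eps he
    refine mul_left_cancel₀ (h.wt_ne_zero σ t 2) ?_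
    have e1 := hs2 t 1 3
    rw [mul_one, ht] at e1
    rw [← mul_assoc, e1, ← ht]
    have hn : π (th m (t : F)) ≠ 0 := (map_ne_zero π).2 (th_ne_zero t.ne_zero)
    have hn' : π (t : F) ≠ 0 := (map_ne_zero π).2 t.ne_zero
    simp only [wt, lamV, kap, Matrix.cons_val, hσe, hτe, h.th_th, th_inv, map_mul, map_pow,
      map_inv₀, _root_.mul_inv_rev]
    field_simp
  -- additivity of the last coordinate
  have hv0y : ∀ e, ρ (h.u 0 e) v0 = v0 := fun e => by
    rw [hv0u, map_zero, mul_zero, Pi.single_zero, map_zero, add_zero]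
  have hadd : ∀ e e', D2 (e + e') 3 = D2 e 3 + D2 e' 3 := fun e e' => by
    have e1 := hD2 (e + e')
    have e2 : h.u 0 (e + e') = h.u 0 e * h.u 0 e' := by rw [h.u_mul]; simp
    rw [e2, map_mul, Module.End.mul_apply, hD2, map_add, map_add, map_smul, hv0y, hD2, hE.iu, map_add σ,
      add_smul] at e1
    have e3 : i (D2 (e + e')) = i (D2 e + natM τ (h.u 0 e) *ᵥ D2 e') := by
      rw [map_add]
      linear_combination (norm := module) -e1
    have e4 := congrFun (hE.inj e3) 3
    rw [Pi.add_apply, h.natM_u, uT_mulVec_three] at e4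
    exact e4
  have hD33z : D2 1 3 = 0 := by
    by_contra hd
    obtain ⟨x, y, hx0, hx1, hy0, hy1, hz0, hz1⟩ := h.exists_two_generic
    have key : ∀ r : F, r ≠ 0 → r ≠ 1 → π r * π r + π r + 1 = 0 := fun r h0 h1 => by
      have hr : r + 1 ≠ 0 := fun e => h1 (h.add_eq_zero_iff.1 e)
      have ea := hD33 (r + 1) hr
      rw [hadd, map_add, map_one] at ea
      have eb := hD33 r h0
      have : D2 1 3 * (π r * π r + π r + 1) = 0 := by
        linear_combination (π r) * ea - (π r + 1) * eb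
      exact (mul_eq_zero.1 this).resolve_left hd
    have e := key (x + y) hz0 hz1
    rw [map_add] at e
    exact one_ne_zero (α := F) (by
      linear_combination e + key x hx0 hx1 + key y hy0 hy1 -
        (π x * π x + π y * π y + π x * π y + π x + π y + 1) * h.two_eq_zero)
  have hD33y : ∀ e, D2 e 3 = 0 := fun e => by
    rcases eq_or_ne e 0 with rfl | he
    · have := hadd 0 0; simpa using this
    · have := hD33 e he
      rw [hD33z] at this
      exact (mul_eq_zero.1 this).resolve_right ((map_ne_zero π).2 he)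
  -- the central commutation
  have hmain : ∀ e, c * π (th m e) + (D1 1 0 + D2 1 1) * π e =
      π (e * e) * X 2 + π (th m (e * e)) * X 3 := by
    intro e
    have e1 : ρ (h.u 1 1) (ρ (h.u 0 e) v2) = ρ (h.u 0 e) (ρ (h.u 1 1) v2) := by
      rw [← Module.End.mul_apply, ← map_mul, ← Module.End.mul_apply, ← map_mul, h.u_central]
    rw [hD2, map_add, map_add, map_smul, hv0u, hX, hE.iu, map_add, map_add, hD1, hD2, hE.iu, map_one,
      mul_one, smul_add, ← map_smul i] at e1
    have e2 : i (σ e • Pi.single 0 c + (X + natM τ (h.u 1 1) *ᵥ D2 e)) =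
        i (D1 e + (D2 e + natM τ (h.u 0 e) *ᵥ X)) := by
      simp only [map_add]
      linear_combination (norm := module) e1
    have e3 := congrFun (hE.inj e2) 0
    simp only [Pi.add_apply, Pi.smul_apply, Pi.single_eq_same, smul_eq_mul, h.natM_u, uT_mulVec_zero,
      hD33y, fz_zero_left, th_zero, th_one, mul_zero, zero_mul, add_zero, mul_one, h.add_self, map_zero,
      map_one, one_mul, hσe, hτe] at e3
    rcases eq_or_ne e 0 with rfl | he
    · simp
    rw [hD20 e he, hD31 e he] at e3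
    rw [th_mul]
    linear_combination e3 + (D1 1 0 * π e) * h.two_eq_zero
  have := h.finite
  have hs : Function.Surjective π := Finite.injective_iff_surjective.1 π.injective
  obtain ⟨c', hc'⟩ := hs c
  obtain ⟨K, hK⟩ := hs (D1 1 0 + D2 1 1)
  obtain ⟨L, hL⟩ := hs (X 2)
  obtain ⟨M, hM⟩ := hs (X 3)
  refine hc0 ?_
  rw [← hc', h.coef_zero (c := c') (K := K) (L := L) (M := M) fun e => π.injective ?_, map_zero]
  simp only [map_add, map_mul, map_zero, hc', hK, hL, hM]
  have e1 := hmain e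
  simp only [map_mul] at e1
  linear_combination e1 + (X 2 * (π e * π e) + X 3 * π (th m (e * e))) * h.two_eq_zero

end Hyp

end CfsgLib.Suzuki
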