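import Cfsg.Agent.Lib.SuzukiModule.Natural
import Cfsg.Agent.Lib.Suzuki.SylowTwo

/-!
Representations in characteristic two without fixed points for elements of order five:
irreducible ones are twisted natural modules, and extensions of two of them are not uniserial.
-/

set_option autoImplicit false
set_option linter.unusedSectionVars false
set_option linter.unnecessarySimpa false

namespace CfsgLib.Suzuki

open Matrix

variable {F : Type*} [Field F] {m : ℕ} {V : Type*} [AddCommGroup V] [Module F V]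
  {ρ : Representation F (Cfsg.Sz F m) V}

/-- Invariant submodule generated by a vector. -/
def gSpan (ρ : Representation F (Cfsg.Sz F m) V) (v : V) : Submodule F V :=
  Submodule.span F (Set.range fun g => ρ g v)

theorem mem_gSpan (v : V) : v ∈ gSpan ρ v :=
  Submodule.subset_span ⟨1, by simp⟩

theorem gSpan_invariant (v : V) (g : Cfsg.Sz F m) {x : V} (hx : x ∈ gSpan ρ v) :
    ρ g x ∈ gSpan ρ v := by
  have : gSpan ρ v ≤ (gSpan ρ v).comap (ρ g) := by
    refine Submodule.span_le.2 ?_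
    rintro _ ⟨g', rfl⟩
    exact Submodule.subset_span ⟨g * g', (by simp [Module.End.mul_apply] : ρ (g * g') v = _)⟩
  exact this hx

/-- A twisted natural module as a representation. -/
noncomputable def natRep (σ : F →+* F) : Representation F (Cfsg.Sz F m) (Fin 4 → F) where
  toFun g := (natM σ g).mulVecLin
  map_one' := by rw [map_one, Matrix.mulVecLin_one]; rfl
  map_mul' g g' := by rw [map_mul, Matrix.mulVecLin_mul]; rfl

theorem natRep_apply (σ : F →+* F) (g : Cfsg.Sz F m) (x : Fin 4 → F) :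
    natRep σ g x = natM σ g *ᵥ x := rfl

end CfsgLib.Suzuki

namespace CfsgLib.Suzuki.Hyp

open Matrix

variable {F : Type*} [Field F] {m : ℕ} (h : Hyp F m)
include h

/-- The sum over a subgroup of order five kills the module. -/
def Five {V : Type*} [AddCommGroup V] (act : Cfsg.Sz F m → V → V) : Prop :=
  ∀ x, x + act (h.u 0 1 * h.w) x + act (h.w * h.u 0 1) x + act (h.u 1 0 * h.w * h.u 1 0) x +
    act (h.u 1 1 * h.w * h.u 1 1) x = 0

variable {V : Type*} [AddCommGroup V] [Module F V] {ρ : Representation F (Cfsg.Sz F m) V}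

theorem comp_apply (g g' : Cfsg.Sz F m) (x : V) : ρ g (ρ g' x) = ρ (g * g') x := by
  rw [map_mul, Module.End.mul_apply]

theorem exists_fixed [Finite V] (S : Submodule F V) (hS : ∀ g, ∀ x ∈ S, ρ g x ∈ S) (hne : S ≠ ⊥) :
    ∃ x ∈ S, x ≠ 0 ∧ ∀ a b, ρ (h.u a b) x = x := by
  have := h.finite
  have : Fact (Nat.Prime 2) := ⟨Nat.prime_two⟩
  letI : MulAction h.U S :=
    { smul := fun g x => ⟨ρ g x, hS g x x.2⟩
      one_smul := fun x => Subtype.ext (by show ρ ((1 : h.U) : Cfsg.Sz F m) (x : V) = x; simp)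
      mul_smul := fun g g' x => Subtype.ext (by
        show ρ ((g * g' : h.U) : Cfsg.Sz F m) (x : V) = ρ g (ρ g' x)
        rw [Subgroup.coe_mul, h.comp_apply]) }
  have hU : IsPGroup 2 h.U := IsPGroup.of_card (n := 2 * (2 * m + 1)) (by rw [h.card_U, ← pow_mul]; ring_nf)
  haveI : Nontrivial S := Submodule.nontrivial_iff_ne_bot.2 hne
  have h2 : 2 ∣ Nat.card S := by
    obtain ⟨x, hx⟩ := exists_ne (0 : S)
    have ho : addOrderOf x = 2 := addOrderOf_eq_prime (Subtype.ext (by
      rw [two_nsmul, Submodule.coe_add, h.vadd_self]; rfl)) hx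
    rw [← ho]
    exact addOrderOf_dvd_natCard x
  have h0 : (0 : S) ∈ MulAction.fixedPoints h.U S := fun g => Subtype.ext (map_zero _)
  obtain ⟨b, hb, hb0⟩ := hU.exists_fixed_point_of_prime_dvd_card_of_fixed_point S h2 h0
  exact ⟨b, b.2, fun e => hb0 (Subtype.ext e.symm),
    fun a c => congrArg Subtype.val (hb ⟨h.u a c, h.u_mem_U a c⟩)⟩

theorem u_d_fixed {x : V} (hx : ∀ a b, ρ (h.u a b) x = x) (t : Fˣ) (a b : F) :
    ρ (h.u a b) (ρ (h.d t) x) = ρ (h.d t) x := by
  have e := h.d_u t⁻¹ a b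
  rw [h.d_inv, inv_inv] at e
  have e1 : h.u a b * h.d t = h.d t * h.u (kap m t⁻¹ * a) (th m (kap m t⁻¹) * kap m t⁻¹ * b) := by
    rw [← e, ← mul_assoc, ← mul_assoc, h.d_mul, mul_inv_cancel, h.d_one, one_mul]
  rw [h.comp_apply, e1, ← h.comp_apply, hx]

theorem exists_eigen [Finite V] (S : Submodule F V) (hS : ∀ g, ∀ x ∈ S, ρ g x ∈ S) (hne : S ≠ ⊥) :
    ∃ x ∈ S, x ≠ 0 ∧ (∀ a b, ρ (h.u a b) x = x) ∧ ∃ k : ℕ, ∀ t : Fˣ, ρ (h.d t) x = (t : F) ^ k • x := by
  classical
  have := h.finite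
  have : Fintype Fˣ := Fintype.ofFinite _
  obtain ⟨x, hxS, hx0, hxu⟩ := h.exists_fixed S hS hne
  set N := Fintype.card Fˣ with hN
  let P : ℕ → V := fun k => ∑ s : Fˣ, (((s : F) ^ k)⁻¹) • ρ (h.d s) x
  have hsum : ∑ k ∈ Finset.range N, P k = x := by
    rw [Finset.sum_comm, Finset.sum_eq_single (1 : Fˣ)]
    · rw [← Finset.sum_smul, h.d_one]
      simp only [Units.val_one, one_pow, inv_one, Finset.sum_const, Finset.card_range, map_one,
        Module.End.one_apply]
      obtain ⟨k, hk⟩ := h.card_units_odd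
      rw [hN, ← Nat.card_eq_fintype_card, hk, add_smul, one_smul, mul_smul, two_nsmul, h.add_self,
        zero_add, one_smul]
    · intro s _ hs
      rw [← Finset.sum_smul]
      have hs1 : ((s : F))⁻¹ ≠ 1 := fun e => hs (Units.ext (inv_eq_one.1 e))
      simp only [← inv_pow]
      rw [geom_sum_eq hs1, inv_pow, ← Units.val_pow_eq_pow_val, hN, pow_card_eq_one, Units.val_one,
        inv_one, sub_self, zero_div, zero_smul]
    · exact fun e => absurd (Finset.mem_univ _) e
  obtain ⟨k, -, hk⟩ := Finset.exists_ne_zero_of_sum_ne_zero (hsum ▸ hx0)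
  refine ⟨P k, S.sum_mem fun s _ => S.smul_mem _ (hS _ _ hxS), hk, fun a b => ?_, k, fun t => ?_⟩
  · simp only [P, map_sum, map_smul, h.u_d_fixed hxu]
  · simp only [P, map_sum, Finset.smul_sum, map_smul]
    refine Fintype.sum_equiv (Equiv.mulLeft t) _ _ fun s => ?_
    rw [Equiv.coe_mulLeft, h.comp_apply, h.d_mul, smul_smul, Units.val_mul, mul_pow, mul_inv,
      ← mul_assoc, mul_inv_cancel₀ (pow_ne_zero _ t.ne_zero), one_mul]

theorem d_fixed_smul {v : V} (hu : ∀ a b, ρ (h.u a b) v = v) {χ : Fˣ → F}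
    (hd : ∀ t, ρ (h.d t) v = χ t • v) (a b : F) (t : Fˣ) : ρ (h.u a b * h.d t) v = χ t • v := by
  rw [← h.comp_apply, hd, map_smul, hu]

/-- A functional invariant under the root group, vanishing at a highest weight vector and its
image under the Weyl element, vanishes on the generated submodule. -/
theorem func_zero {v : V} (hu : ∀ a b, ρ (h.u a b) v = v) {χ : Fˣ → F}
    (hd : ∀ t, ρ (h.d t) v = χ t • v) {f : V →ₗ[F] F} (hf : ∀ a b x, f (ρ (h.u a b) x) = f x)
    (hv : f v = 0) (hw : f (ρ h.w v) = 0) {x : V} (hx : x ∈ gSpan ρ v) : f x = 0 := by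
  have : gSpan ρ v ≤ LinearMap.ker f := by
    refine Submodule.span_le.2 ?_
    rintro _ ⟨g, rfl⟩
    rw [SetLike.mem_coe, LinearMap.mem_ker]
    show f (ρ g v) = 0
    rcases h.decomp g with ⟨a, b, t, rfl⟩ | ⟨p, q, a, b, t, rfl⟩
    · rw [h.d_fixed_smul hu hd, map_smul, hv, smul_zero]
    · rw [← h.comp_apply, h.d_fixed_smul hu hd, map_smul, map_smul, ← h.comp_apply, hf, hw, smul_zero]
  exact this hx

theorem natM_w (σ : F →+* F) : natM σ h.w = (Cfsg.suzukiForm F).map σ := rfl

theorem natM_uw_col (σ : F →+* F) (a b : F) :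
    natM σ (h.u a b * h.w) *ᵥ Pi.single 0 1 = ![σ (fz m a b), σ b, σ a, 1] := by
  rw [map_mul, h.natM_u, h.natM_w]
  funext i
  fin_cases i <;> simp [uT, uMat, Cfsg.suzukiForm, Matrix.mul_apply, Fin.sum_univ_four]

/-- Twisted natural modules are irreducible. -/
theorem nat_eq_top (σ : F →+* F) (S : Submodule F (Fin 4 → F))
    (hS : ∀ g : Cfsg.Sz F m, ∀ x ∈ S, natM σ g *ᵥ x ∈ S) (hne : S ≠ ⊥) : S = ⊤ := by
  have := h.finite
  obtain ⟨x, hxS, hx0, hxu⟩ := h.exists_fixed (ρ := natRep (m := m) σ) S hS hne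
  have hx3 : x 3 = 0 := by
    have := congrFun (hxu 0 1) 1
    rw [natRep_apply, h.natM_u, uT_mulVec_one, th_zero, map_zero, map_one] at this
    linear_combination this
  have hx2 : x 2 = 0 := by
    have := congrFun (hxu 0 1) 0
    rw [natRep_apply, h.natM_u, uT_mulVec_zero, hx3] at this
    simpa using this
  have hx1 : x 1 = 0 := by
    have := congrFun (hxu 1 0) 0
    rw [natRep_apply, h.natM_u, uT_mulVec_zero, hx3, hx2] at this
    simpa using this
  have h0 : (Pi.single 0 1 : Fin 4 → F) ∈ S := by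
    have hx00 : x 0 ≠ 0 := fun e => hx0 (by funext i; fin_cases i <;> assumption)
    have : (Pi.single 0 1 : Fin 4 → F) = (x 0)⁻¹ • x := by
      funext i; fin_cases i <;> simp [hx1, hx2, hx3, hx00]
    rw [this]
    exact S.smul_mem _ hxS
  have hcol : ∀ a b, ![σ (fz m a b), σ b, σ a, 1] ∈ S := fun a b => by
    rw [← h.natM_uw_col]; exact hS _ _ h0
  have h3 := hcol 0 0
  have h01 := hcol 0 1
  have h10 := hcol 1 0
  rw [Submodule.eq_top_iff']
  intro y
  have e : y = (y 0 - y 1 - y 2) • (Pi.single 0 1 : Fin 4 → F) + (y 3 - y 1 - y 2) • ![σ (fz m 0 0), σ 0, σ 0, 1]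
      + y 1 • ![σ (fz m 0 1), σ 1, σ 0, 1] + y 2 • ![σ (fz m 1 0), σ 0, σ 1, 1] := by
    funext i
    fin_cases i <;> simp [fz, Matrix.vecHead, Matrix.vecTail] <;> ring
  rw [e]
  exact S.add_mem (S.add_mem (S.add_mem (S.smul_mem _ h0) (S.smul_mem _ h3)) (S.smul_mem _ h01))
    (S.smul_mem _ h10)

/-- Irreducible modules without fixed points are twisted natural modules. -/
theorem irreducible_natural [Finite V] [Nontrivial V] (h5 : h.Five fun g x => ρ g x)
    (hirr : ∀ S : Submodule F V, (∀ g, ∀ x ∈ S, ρ g x ∈ S) → S ≠ ⊥ → S = ⊤) :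
    ∃ (σ : F →+* F) (e : V ≃ₗ[F] (Fin 4 → F)), ∀ g x, e (ρ g x) = natM σ g *ᵥ e x := by
  classical
  have := h.finite
  obtain ⟨v, -, hv0, hvu, k, hvd⟩ := h.exists_eigen (⊤ : Submodule F V) (fun _ _ _ => trivial) top_ne_bot
  have hv : gSpan ρ v = ⊤ := hirr _ (fun g x hx => gSpan_invariant v g hx)
    (fun e => hv0 (by have := mem_gSpan (ρ := ρ) v; rwa [e, Submodule.mem_bot] at this))
  have : Finite (Module.Dual F V) := Module.finite_of_finite F
  have : Nontrivial (Module.Dual F V) := by infer_instance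
  obtain ⟨f₀, -, hf0, hfu₀⟩ := h.exists_fixed (ρ := ρ.dual) (⊤ : Submodule F (Module.Dual F V))
    (fun _ _ _ => trivial) top_ne_bot
  have hfu : ∀ a b x, f₀ (ρ (h.u a b) x) = f₀ x := fun a b x => by
    have := LinearMap.congr_fun (hfu₀ a (b + th m a * a)) x
    rw [Representation.dual_apply, ← h.u_inv, inv_inv] at this
    exact this
  have hw1 : ∀ p q a b, f₀ (ρ (h.u p q * h.w * h.u a b) v) = f₀ (ρ h.w v) := fun p q a b => by
    rw [← h.comp_apply, hvu, ← h.comp_apply, hfu]
  have hfv : f₀ v = 0 := by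
    have e := congrArg f₀ (h5 v)
    simp only [map_add, map_zero, hw1] at e
    have e1 : f₀ (ρ (h.u 0 1 * h.w) v) = f₀ (ρ h.w v) := by
      simpa [h.u_zero] using hw1 0 1 0 0
    have e2 : f₀ (ρ (h.w * h.u 0 1) v) = f₀ (ρ h.w v) := by
      simpa [h.u_zero] using hw1 0 0 0 1
    rw [e1, e2] at e
    linear_combination e - (2 * f₀ (ρ h.w v)) * h.two_eq_zero
  have ha : f₀ (ρ h.w v) ≠ 0 := fun e => hf0 (LinearMap.ext fun x =>
    h.func_zero hvu hvd hfu hfv e (by rw [hv]; trivial))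
  set f : V →ₗ[F] F := (f₀ (ρ h.w v))⁻¹ • f₀ with hfdef
  -- the weight as a function of the scalar
  let χ : F → F := fun x => if hx : x ≠ 0 then ((h.exists_lam hx).choose : F) ^ k else 0
  have hχ : ∀ t : Fˣ, χ ((t : F) * th m (t : F)) = (t : F) ^ k := fun t => by
    have hne : (t : F) * th m (t : F) ≠ 0 := mul_ne_zero t.ne_zero (th_ne_zero t.ne_zero)
    simp only [χ, dif_pos hne]
    congr 1
    apply h.th_mul_self_bijective.1
    show th m _ * _ = th m _ * _
    rw [mul_comm, (h.exists_lam hne).choose_spec, mul_comm]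
  have hF : ∀ g : Cfsg.Sz F m, f (ρ g v) =
      χ (((g : Matrix.SpecialLinearGroup (Fin 4) F) : Matrix (Fin 4) (Fin 4) F) 3 0) := by
    intro g
    rcases h.decomp g with ⟨a, b, t, rfl⟩ | ⟨p, q, a, b, t, rfl⟩
    · rw [h.d_fixed_smul hvu hvd, map_smul, hfdef, LinearMap.smul_apply, hfv, smul_zero, smul_zero]
      rw [show (((h.u a b * h.d t : Cfsg.Sz F m) : Matrix.SpecialLinearGroup (Fin 4) F) :
        Matrix (Fin 4) (Fin 4) F) 3 0 = 0 by
          simp [Hyp.u, Hyp.d, uMat, dMat, Matrix.mul_apply, Fin.sum_univ_four]]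
      simp [χ]
    · rw [← h.comp_apply, h.d_fixed_smul hvu hvd, map_smul, map_smul, hfdef, LinearMap.smul_apply,
        ← h.comp_apply, hfu, smul_eq_mul, smul_eq_mul, inv_mul_cancel₀ ha, mul_one]
      rw [show (((h.u p q * h.w * (h.u a b * h.d t) : Cfsg.Sz F m) : Matrix.SpecialLinearGroup (Fin 4) F) :
        Matrix (Fin 4) (Fin 4) F) 3 0 = (t : F) * th m (t : F) by
          simp [Hyp.u, Hyp.d, Hyp.w, uMat, dMat, Cfsg.suzukiForm, Matrix.mul_apply, Fin.sum_univ_four,
            Matrix.vecMul_diagonal],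
        hχ]
  have hχ1 : χ 1 = 1 := by simpa using hχ 1
  have hχ0 : χ 0 = 0 := by simp [χ]
  have hχm : ∀ x y, χ (x * y) = χ x * χ y := fun x y => by
    rcases eq_or_ne x 0 with rfl | hx
    · simp [hχ0]
    rcases eq_or_ne y 0 with rfl | hy
    · simp [hχ0]
    obtain ⟨s, hs⟩ := h.exists_lam hx
    obtain ⟨t, ht⟩ := h.exists_lam hy
    rw [← hs, ← ht, hχ, hχ, ← mul_pow, ← Units.val_mul, ← hχ, Units.val_mul, th_mul]
    ring_nf
  have hrow : ∀ z, χ (1 + z) + χ z + 1 = 0 := fun z => by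
    obtain ⟨b, rfl⟩ := h.th_bijective.2 z
    have e := congrArg (fun x => f (ρ (h.w * h.u 0 b) x)) (h5 v)
    simp only [map_add, map_zero, h.comp_apply] at e
    simp only [hF] at e
    simp [Hyp.u, Hyp.w, uMat, Cfsg.suzukiForm, Matrix.mul_apply, Fin.sum_univ_four, fz] at e
    simp [add_assoc, hχ1, h.add_self] at e ⊢
    linear_combination e
  have hχa : ∀ x y, χ (x + y) = χ x + χ y := fun x y => by
    rcases eq_or_ne x 0 with rfl | hx
    · simp [hχ0]
    have e := hrow (y / x)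
    have e1 : x + y = x * (1 + y / x) := by field_simp
    have e2 : χ y = χ x * χ (y / x) := by rw [← hχm, mul_div_cancel₀ y hx]
    rw [e1, hχm, e2]
    linear_combination (χ x) * e - (χ x + χ x * χ (y / x)) * h.two_eq_zero
  let σ : F →+* F :=
    { toFun := χ, map_one' := hχ1, map_mul' := hχm, map_zero' := hχ0, map_add' := hχa }
  -- both modules embed in functions on the group
  let Φ : V →ₗ[F] (Cfsg.Sz F m → F) := LinearMap.pi fun g => f.comp (ρ g)
  let J : (Fin 4 → F) →ₗ[F] (Cfsg.Sz F m → F) :=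
    LinearMap.pi fun g => (LinearMap.proj 3).comp (natM σ g).mulVecLin
  have hΦa : ∀ g x, Φ x g = f (ρ g x) := fun _ _ => rfl
  have hJa : ∀ g x, J x g = (natM σ g *ᵥ x) 3 := fun _ _ => rfl
  have hJinj : Function.Injective J := by
    rw [← LinearMap.ker_eq_bot]
    by_contra hne
    have htop := h.nat_eq_top σ _ (fun g x hx => by
      rw [LinearMap.mem_ker] at hx ⊢
      funext g'
      rw [hJa, Matrix.mulVec_mulVec, ← map_mul, ← hJa, hx]
      rfl) hne
    have h3 : (Pi.single 3 1 : Fin 4 → F) ∈ LinearMap.ker J := by rw [htop]; trivial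
    have := congrFun (LinearMap.mem_ker.1 h3) 1
    rw [hJa, map_one, Matrix.one_mulVec] at this
    simp at this
  have hΦinj : Function.Injective Φ := by
    rw [← LinearMap.ker_eq_bot]
    by_contra hne
    have htop := hirr _ (fun g x hx => by
      rw [LinearMap.mem_ker] at hx ⊢
      funext g'
      rw [hΦa, h.comp_apply, ← hΦa, hx]
      rfl) hne
    have h3 : ρ h.w v ∈ LinearMap.ker Φ := by rw [htop]; trivial
    have := congrFun (LinearMap.mem_ker.1 h3) 1
    rw [hΦa, map_one, Module.End.one_apply, hfdef, LinearMap.smul_apply, smul_eq_mul,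
      inv_mul_cancel₀ ha] at this
    exact one_ne_zero this
  have hgen : ∀ g, Φ (ρ g v) = J (natM σ g *ᵥ Pi.single 0 1) := fun g => by
    funext g'
    rw [hΦa, hJa, h.comp_apply, hF, Matrix.mulVec_mulVec, ← map_mul, Matrix.mulVec_single_one]
    rfl
  have hnat : gSpan (natRep (m := m) σ) (Pi.single 0 1) = ⊤ := h.nat_eq_top σ _
    (fun g x hx => gSpan_invariant (ρ := natRep (m := m) σ) _ g hx) (fun e => by
      have := mem_gSpan (ρ := natRep (m := m) σ) (Pi.single 0 1 : Fin 4 → F)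
      rw [e, Submodule.mem_bot] at this
      simpa using congrFun this 0)
  have hrange : LinearMap.range Φ = LinearMap.range J := by
    rw [LinearMap.range_eq_map, LinearMap.range_eq_map, ← hv, ← hnat, gSpan, gSpan, Submodule.map_span,
      Submodule.map_span, ← Set.range_comp, ← Set.range_comp]
    congr 1
    exact congrArg Set.range (funext hgen)
  let e : V ≃ₗ[F] (Fin 4 → F) := (LinearEquiv.ofInjective Φ hΦinj).trans
    ((LinearEquiv.ofEq _ _ hrange).trans (LinearEquiv.ofInjective J hJinj).symm)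
  have he : ∀ x, J (e x) = Φ x := fun x => by
    have := congrArg Subtype.val ((LinearEquiv.ofInjective J hJinj).apply_symm_apply
      ((LinearEquiv.ofEq _ _ hrange) (LinearEquiv.ofInjective Φ hΦinj x)))
    simpa [e] using this
  refine ⟨σ, e, fun g x => hJinj ?_⟩
  rw [he]
  funext g'
  rw [hΦa, h.comp_apply, hJa, Matrix.mulVec_mulVec, ← map_mul, ← hJa, he, hΦa]

theorem pairing_u (τ : F →+* F) (a b : F) (w x : Fin 4 → F) :
    (w ∘ Fin.rev) ⬝ᵥ (uT m τ a (b + th m a * a) *ᵥ x) = ((uT m τ a b *ᵥ w) ∘ Fin.rev) ⬝ᵥ x := by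
  have e2 : b + th m a * a + th m a * a = b := by rw [add_assoc, h.add_self, add_zero]
  have e3 : fz m a (b + th m a * a) = fz m a b := by
    have : th m (b + th m a * a) = th m b + a ^ 2 * th m a := by rw [h.th_add, th_mul, h.th_th]
    simp only [fz, this]
    linear_combination (a ^ 2 * th m a) * h.two_eq_zero
  simp [dotProduct, Fin.sum_univ_four, Fin.rev, uT_mulVec_zero, uT_mulVec_one, uT_mulVec_two,
    uT_mulVec_three, e2, e3, map_add]
  ring

/-- Extensions of twisted natural modules are not uniserial. -/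
theorem exists_proper [Finite V] {σ τ : F →+* F} (i : (Fin 4 → F) →ₗ[F] V)
    (q : V →ₗ[F] (Fin 4 → F)) (hi : Function.Injective i) (hq : Function.Surjective q)
    (hex : ∀ x, q x = 0 ↔ ∃ w, i w = x)
    (hig : ∀ g w, ρ g (i w) = i (natM τ g *ᵥ w)) (hqg : ∀ g x, q (ρ g x) = natM σ g *ᵥ q x) :
    ∃ S : Submodule F V, (∀ g, ∀ x ∈ S, ρ g x ∈ S) ∧ S ≠ ⊤ ∧ ∃ v ∈ S, q v ≠ 0 := by
  classical
  have := h.finite
  have hE : h.BExt ρ σ τ i q :=
    ⟨hi, hq, hex, fun a b => hig _, fun t => hig _, fun a b => hqg _, fun t => hqg _⟩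
  obtain ⟨v, hvd, hvu, hvq⟩ := h.exists_fixed_lift hE
  refine ⟨gSpan ρ v, fun g x hx => gSpan_invariant v g hx, fun htop => ?_, v, mem_gSpan v,
    fun e => by rw [hvq] at e; simpa using congrFun e 0⟩
  -- the dual extension
  let i' : (Fin 4 → F) →ₗ[F] Module.Dual F V :=
    { toFun := fun w => ((dotProductBilin F F) (w ∘ Fin.rev)).comp q
      map_add' := fun w w' => by ext x; simp [dotProduct, add_mul, Finset.sum_add_distrib]
      map_smul' := fun c w => by ext x; simp [dotProduct, Finset.mul_sum, mul_assoc] }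
  let q' : Module.Dual F V →ₗ[F] (Fin 4 → F) :=
    { toFun := fun f k => f (i (Pi.single (Fin.rev k) 1))
      map_add' := fun f f' => rfl
      map_smul' := fun c f => rfl }
  have hi'a : ∀ w x, i' w x = (w ∘ Fin.rev) ⬝ᵥ q x := fun _ _ => rfl
  have hq'a : ∀ (f : Module.Dual F V) x, f (i x) = (q' f ∘ Fin.rev) ⬝ᵥ x := fun f x => by
    have e : f.comp i = (dotProductBilin F F) (q' f ∘ Fin.rev) := by
      refine LinearMap.pi_ext fun k c => ?_
      rw [show (Pi.single k c : Fin 4 → F) = c • Pi.single k 1 by rw [← Pi.single_smul, smul_eq_mul, mul_one],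
        map_smul, map_smul]
      congr 1
      show f (i (Pi.single k 1)) = (q' f ∘ Fin.rev) ⬝ᵥ Pi.single k 1
      simp [q', dotProduct_single]
    exact LinearMap.congr_fun e x
  have hrev : ∀ {w w' : Fin 4 → F}, (∀ x, (w ∘ Fin.rev) ⬝ᵥ x = (w' ∘ Fin.rev) ⬝ᵥ x) → w = w' := by
    intro w w' e
    funext k
    have := e (Pi.single (Fin.rev k) 1)
    simpa [dotProduct_single] using this
  have hd' : ∀ (τ : F →+* F) t w x, (w ∘ Fin.rev) ⬝ᵥ (natM τ (h.d t⁻¹) *ᵥ x) =
      ((natM τ (h.d t) *ᵥ w) ∘ Fin.rev) ⬝ᵥ x := fun τ t w x => by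
    rw [h.natM_d, h.natM_d]
    refine Finset.sum_congr rfl fun k _ => ?_
    have : wt m τ t⁻¹ k = wt m τ t (Fin.rev k) := by
      rw [wt, wt]
      congr 1
      fin_cases k <;> simp [lamV, Fin.rev, th_inv, mul_comm]
    simp [this]
    ring
  have hu' : ∀ (τ : F →+* F) a b w x, (w ∘ Fin.rev) ⬝ᵥ (natM τ (h.u a b)⁻¹ *ᵥ x) =
      ((natM τ (h.u a b) *ᵥ w) ∘ Fin.rev) ⬝ᵥ x := fun τ a b w x => by
    rw [h.u_inv, h.natM_u, h.natM_u, h.pairing_u]
  have hE' : h.BExt ρ.dual τ σ i' q' := by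
    refine ⟨fun w w' e => hrev fun x => ?_, fun c => ?_, fun f => ⟨fun e => ?_, ?_⟩, fun a b w => ?_,
      fun t w => ?_, fun a b f => hrev fun x => ?_, fun t f => hrev fun x => ?_⟩
    · obtain ⟨y, rfl⟩ := hq x
      rw [← hi'a, ← hi'a, e]
    · obtain ⟨l, hl⟩ := i.exists_leftInverse_of_injective (LinearMap.ker_eq_bot.2 hi)
      refine ⟨((dotProductBilin F F) (c ∘ Fin.rev)).comp l, hrev fun x => ?_⟩
      rw [← hq'a, LinearMap.comp_apply, show l (i x) = x from LinearMap.congr_fun hl x]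
      rfl
    · obtain ⟨s, hs⟩ := q.exists_rightInverse_of_surjective (LinearMap.range_eq_top.2 hq)
      refine ⟨fun k => f (s (Pi.single (Fin.rev k) 1)), LinearMap.ext fun x => ?_⟩
      have hx : f x = f (s (q x)) := by
        obtain ⟨w, hw⟩ := (hex (x + s (q x))).1 (by
          rw [map_add, show q (s (q x)) = q x from LinearMap.congr_fun hs _]; exact h.vadd_self (q x))
        have := congrArg f hw
        rw [hq'a, e, map_add] at this
        simp at this
        exact h.add_eq_zero_iff.1 this.symm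
      rw [hi'a, hx, ← Finset.univ_sum_single (q x), map_sum, map_sum]
      refine Finset.sum_congr rfl fun k _ => ?_
      rw [show (Pi.single k (q x k) : Fin 4 → F) = q x k • Pi.single k 1 by
        rw [← Pi.single_smul, smul_eq_mul, mul_one], map_smul, map_smul, smul_eq_mul, mul_comm]
      simp
    · rintro ⟨w, rfl⟩
      funext k
      show i' w (i _) = 0
      rw [hi'a, (hex _).2 ⟨_, rfl⟩, dotProduct_zero]
    · ext x
      rw [Representation.dual_apply]
      show i' w (ρ _ x) = _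
      rw [hi'a, hi'a, hqg, hu']
    · ext x
      rw [Representation.dual_apply]
      show i' w (ρ _ x) = _
      rw [hi'a, hi'a, hqg, h.d_inv, hd']
    · rw [← hq'a, Representation.dual_apply]
      show f (ρ _ (i x)) = _
      rw [hig, hq'a, hu']
    · rw [← hq'a, Representation.dual_apply]
      show f (ρ _ (i x)) = _
      rw [hig, hq'a, h.d_inv, hd']
  obtain ⟨f, hfd, hfu₀, hfq⟩ := h.exists_fixed_lift hE'
  have hfu : ∀ a b x, f (ρ (h.u a b) x) = f x := fun a b x => by
    have := LinearMap.congr_fun (hfu₀ a (b + th m a * a)) x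
    rw [Representation.dual_apply, ← h.u_inv, inv_inv] at this
    exact this
  have hfv : f v = 0 := by
    by_contra hne
    refine h.endo_not_inv (α := σ) (β := τ) fun x hx => ?_
    obtain ⟨t, ht⟩ := h.exists_lam hx
    have e := LinearMap.congr_fun (hfd t) v
    rw [Representation.dual_apply, h.d_inv] at e
    change f (ρ (h.d t⁻¹) v) = wt m τ t 0 * f v at e
    rw [hvd, map_smul, smul_eq_mul] at e
    have e1 := mul_right_cancel₀ hne e
    have e2 : wt m σ t⁻¹ 0 = (σ x)⁻¹ := by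
      rw [← ht, ← map_inv₀ σ, wt]; congr 1; simp [lamV, th_inv, mul_comm]
    rw [e2, show wt m τ t 0 = τ x by rw [← ht]; rfl] at e1
    rw [← e1, mul_inv_cancel₀ ((map_ne_zero σ).2 hx)]
  have hqw : q (ρ h.w v) = Pi.single 3 1 := by
    rw [hqg, hvq]
    have := h.natM_uw_col σ 0 0
    rw [h.u_zero, one_mul] at this
    rw [this]
    funext k
    fin_cases k <;> simp [fz]
  set f' : V →ₗ[F] F := f + f (ρ h.w v) • (LinearMap.proj 3).comp q with hf'
  have hz := fun x => h.func_zero hvu hvd (f := f') (fun a b y => by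
      simp [hf', hfu, hqg, h.natM_u, uT_mulVec_three])
    (by simp [hf', hfv, hvq]) (by simp [hf', hqw, h.add_self]) (x := x) (by rw [htop]; trivial)
  have e := hz (i (Pi.single 3 1))
  rw [hf'] at e
  simp [(hex (i (Pi.single 3 1))).2 ⟨_, rfl⟩] at e
  have e2 := congrFun hfq 0
  change f (i (Pi.single (Fin.rev 0) 1)) = _ at e2
  rw [show Fin.rev (0 : Fin 4) = 3 from rfl, e] at e2
  simp at e2

end CfsgLib.Suzuki.Hyp
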