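import Cfsg.Agent.Lib.SuzukiModule.Rep

/-!
Invariant trilinear forms on modules without fixed points for elements of order five vanish.
-/

set_option autoImplicit false
set_option linter.unusedSectionVars false

namespace CfsgLib.Suzuki

open Matrix

variable {F : Type*} [Field F] {m : ℕ} {V : Type*} [AddCommGroup V] [Module F V]

/-- Restriction to an invariant submodule. -/
def subRep (ρ : Representation F (Cfsg.Sz F m) V) (S : Submodule F V)
    (hS : ∀ g, ∀ x ∈ S, ρ g x ∈ S) : Representation F (Cfsg.Sz F m) S where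
  toFun g := (ρ g).restrict (hS g)
  map_one' := by ext x; simp
  map_mul' g g' := by ext x; simp [Module.End.mul_apply]

theorem subRep_apply (ρ : Representation F (Cfsg.Sz F m) V) (S : Submodule F V)
    (hS : ∀ g, ∀ x ∈ S, ρ g x ∈ S) (g : Cfsg.Sz F m) (x : S) : (subRep ρ S hS g x : V) = ρ g x := rfl

/-- The action on the quotient by an invariant submodule. -/
def quotRep (ρ : Representation F (Cfsg.Sz F m) V) (S : Submodule F V)
    (hS : ∀ g, ∀ x ∈ S, ρ g x ∈ S) : Representation F (Cfsg.Sz F m) (V ⧸ S) where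
  toFun g := S.mapQ S (ρ g) (hS g)
  map_one' := by
    refine Submodule.linearMap_qext _ (LinearMap.ext fun x => ?_)
    simp
  map_mul' g g' := by
    refine Submodule.linearMap_qext _ (LinearMap.ext fun x => ?_)
    simp [Module.End.mul_apply]

theorem quotRep_apply (ρ : Representation F (Cfsg.Sz F m) V) (S : Submodule F V)
    (hS : ∀ g, ∀ x ∈ S, ρ g x ∈ S) (g : Cfsg.Sz F m) (x : V) :
    quotRep ρ S hS g (Submodule.Quotient.mk x) = Submodule.Quotient.mk (ρ g x) := rfl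

/-- Invariance of a trilinear form. -/
def TriInv {V₁ V₂ V₃ : Type*} [AddCommGroup V₁] [Module F V₁] [AddCommGroup V₂] [Module F V₂]
    [AddCommGroup V₃] [Module F V₃] (act₁ : Cfsg.Sz F m → V₁ → V₁) (act₂ : Cfsg.Sz F m → V₂ → V₂)
    (act₃ : Cfsg.Sz F m → V₃ → V₃) (β : V₁ →ₗ[F] V₂ →ₗ[F] V₃ →ₗ[F] F) : Prop :=
  ∀ g x y z, β (act₁ g x) (act₂ g y) (act₃ g z) = β x y z

theorem exists_tri_quot {U₁ U₂ U₃ : Type*} [AddCommGroup U₁] [Module F U₁] [AddCommGroup U₂]
    [Module F U₂] [AddCommGroup U₃] [Module F U₃] (r₁ : Representation F (Cfsg.Sz F m) U₁)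
    (r₂ : Representation F (Cfsg.Sz F m) U₂) (r₃ : Representation F (Cfsg.Sz F m) U₃) (S : Submodule F U₁)
    (hS : ∀ g, ∀ x ∈ S, r₁ g x ∈ S) (γ : U₁ →ₗ[F] (U₂ →ₗ[F] U₃ →ₗ[F] F)) (hle : S ≤ LinearMap.ker γ)
    (hγ : TriInv (fun g x => r₁ g x) (fun g x => r₂ g x) (fun g x => r₃ g x) γ) :
    ∃ γq : (U₁ ⧸ S) →ₗ[F] (U₂ →ₗ[F] U₃ →ₗ[F] F), γq.comp S.mkQ = γ ∧
      TriInv (fun g x => quotRep r₁ S hS g x) (fun g x => r₂ g x) (fun g x => r₃ g x) γq := by
  obtain ⟨s, hs⟩ := S.mkQ.exists_rightInverse_of_surjective S.range_mkQ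
  have hγs : ∀ x, γ (s (S.mkQ x)) = γ x := fun x => by
    have e : S.mkQ (s (S.mkQ x) - x) = 0 := by
      rw [map_sub, show S.mkQ (s (S.mkQ x)) = S.mkQ x from LinearMap.congr_fun hs _, sub_self]
    have := hle ((Submodule.Quotient.mk_eq_zero S).1 e)
    rwa [LinearMap.mem_ker, map_sub, sub_eq_zero] at this
  refine ⟨γ.comp s, LinearMap.ext hγs, fun g x y z => ?_⟩
  obtain ⟨x, rfl⟩ := S.mkQ_surjective x
  have e : quotRep r₁ S hS g (S.mkQ x) = S.mkQ (r₁ g x) := rfl
  simp only [e, LinearMap.comp_apply, hγs]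
  exact hγ g x y z

namespace Hyp

variable (h : Hyp F m) {ρ : Representation F (Cfsg.Sz F m) V}
include h

theorem five_sub (h5 : h.Five fun g x => ρ g x) (S : Submodule F V) (hS : ∀ g, ∀ x ∈ S, ρ g x ∈ S) :
    h.Five fun g x => subRep ρ S hS g x := fun x => Subtype.ext (by
  simp only [Submodule.coe_add, subRep_apply, ZeroMemClass.coe_zero]
  exact h5 x)

theorem five_quot (h5 : h.Five fun g x => ρ g x) (S : Submodule F V) (hS : ∀ g, ∀ x ∈ S, ρ g x ∈ S) :
    h.Five fun g x => quotRep ρ S hS g x := fun x => by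
  obtain ⟨y, rfl⟩ := Submodule.Quotient.mk_surjective S x
  simp only [quotRep_apply, ← Submodule.Quotient.mk_add, h5 y, Submodule.Quotient.mk_zero]

theorem five_points_inv : (h.u 0 1 * h.w)⁻¹ = h.w * h.u 0 1 ∧ (h.w * h.u 0 1)⁻¹ = h.u 0 1 * h.w ∧
    (h.u 1 0 * h.w * h.u 1 0)⁻¹ = h.u 1 1 * h.w * h.u 1 1 ∧
    (h.u 1 1 * h.w * h.u 1 1)⁻¹ = h.u 1 0 * h.w * h.u 1 0 := by
  refine ⟨?_, ?_, ?_, ?_⟩ <;>
    simp [_root_.mul_inv_rev, h.w_inv, h.u_inv, th_one, h.add_self, mul_assoc]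

theorem five_dual (h5 : h.Five fun g x => ρ g x) : h.Five fun g f => ρ.dual g f := fun f => by
  obtain ⟨i1, i2, i3, i4⟩ := h.five_points_inv
  ext x
  simp only [LinearMap.add_apply, Representation.dual_apply, i1, i2, i3, i4, LinearMap.zero_apply]
  show f x + f (ρ _ x) + f (ρ _ x) + f (ρ _ x) + f (ρ _ x) = 0
  rw [← map_add, ← map_add, ← map_add, ← map_add]
  have e : x + ρ (h.w * h.u 0 1) x + ρ (h.u 0 1 * h.w) x + ρ (h.u 1 1 * h.w * h.u 1 1) x +
      ρ (h.u 1 0 * h.w * h.u 1 0) x = 0 := by rw [← h5 x]; abel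
  rw [e, map_zero]

theorem lam_th (t : Fˣ) : th m ((t : F) * th m (t : F)) = (t : F) * ((t : F) * th m (t : F)) := by
  rw [th_mul, h.th_th]; ring

theorem tri_core {a b c : F →+* F} (hN : (a ≠ c ∧ b ≠ c) ∨ (a = b ∧ b = c))
    {β : (Fin 4 → F) →ₗ[F] (Fin 4 → F) →ₗ[F] (Fin 4 → F) →ₗ[F] F}
    (hβ : TriInv (fun (g : Cfsg.Sz F m) x => natM a g *ᵥ x) (fun g x => natM b g *ᵥ x) (fun g x => natM c g *ᵥ x) β) :
    β = 0 := by
  have hsq : ¬ ∀ x : F, a x = a x * a x := fun e => by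
    obtain ⟨x, hx0, hx1⟩ := h.exists_ne_zero_one
    exact h.sq_ne_self hx0 hx1 (a.injective (by rw [map_mul]; exact (e x).symm))
  have hd : ∀ (σ : F →+* F) t (k : Fin 4),
      natM σ (h.d t) *ᵥ (Pi.single k 1 : Fin 4 → F) = wt m σ t k • Pi.single k 1 := fun σ t k => by
    rw [h.natM_d]
    funext i
    rcases eq_or_ne i k with rfl | hik <;> simp [*]
  set e0 : Fin 4 → F := Pi.single 0 1 with he0
  set e3 : Fin 4 → F := Pi.single 3 1 with he3
  have hk : ∀ k, β e0 e3 (Pi.single k 1) = 0 := fun k => by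
    by_contra hne
    have hw : ∀ t, wt m a t 0 * wt m b t 3 * wt m c t k = 1 := fun t => by
      have e := hβ (h.d t) e0 e3 (Pi.single k 1)
      simp only [he0, he3, hd, map_smul, LinearMap.smul_apply, smul_eq_mul] at e
      exact mul_right_cancel₀ hne (by rw [one_mul]; linear_combination e)
    have main : ∀ x, x ≠ 0 → ∀ t : Fˣ, (t : F) * th m (t : F) = x → a x * c (lamV m t k) = b x := by
      intro x hx t ht
      have e := hw t
      have l0 : lamV m t 0 = x := by rw [← ht]; rfl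
      have l3 : lamV m t 3 = x⁻¹ := by rw [← ht]; rfl
      simp only [wt, l0, l3, map_inv₀] at e
      have hb : b x ≠ 0 := (map_ne_zero b).2 hx
      field_simp at e
      linear_combination e
    have hth : ∀ t : Fˣ, c (th m ((t : F) * th m (t : F))) = c (t : F) * c ((t : F) * th m (t : F)) :=
      fun t => by rw [h.lam_th, map_mul]
    fin_cases k
    · obtain ⟨hac, hsq'⟩ := h.endo_mul_eq (α := b) (β := a) (γ := c) fun x => by
        rcases eq_or_ne x 0 with rfl | hx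
        · simp
        obtain ⟨t, ht⟩ := h.exists_lam hx
        have e := main x hx t ht
        simp only [lamV, Fin.zero_eta, Matrix.cons_val, ht] at e
        exact e.symm
      rcases hN with ⟨h1, -⟩ | ⟨rfl, rfl⟩
      · exact h1 hac
      · exact hsq hsq'
    · rcases h.endo_pair (α := a) (β := c.comp h.thHom) (γ := b) (δ := c) (fun x => by
        rcases eq_or_ne x 0 with rfl | hx
        · simp
        obtain ⟨t, ht⟩ := h.exists_lam hx
        have e := main x hx t ht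
        simp only [lamV, Fin.mk_one, Matrix.cons_val] at e
        rw [RingHom.comp_apply, thHom_apply, ← ht, hth, ht]
        linear_combination (c x) * e) with ⟨-, h2⟩ | ⟨h1, h2⟩
      · obtain ⟨x, hx0, hx1⟩ := h.exists_ne_zero_one
        exact h.th_ne_self hx0 hx1 (c.injective (RingHom.congr_fun h2 x))
      · rcases hN with ⟨h1', -⟩ | ⟨rfl, rfl⟩
        · exact h1' h1
        · obtain ⟨x, hx0, hx1⟩ := h.exists_ne_zero_one
          exact h.th_ne_self hx0 hx1 (a.injective (RingHom.congr_fun h2 x))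
    · rcases h.endo_pair (α := a) (β := c) (γ := b) (δ := c.comp h.thHom) (fun x => by
        rcases eq_or_ne x 0 with rfl | hx
        · simp
        obtain ⟨t, ht⟩ := h.exists_lam hx
        have e := main x hx t ht
        simp only [lamV, Fin.reduceFinMk, Matrix.cons_val, map_inv₀] at e
        rw [RingHom.comp_apply, thHom_apply, ← ht, hth, ht]
        have hct : c (t : F) ≠ 0 := (map_ne_zero c).2 t.ne_zero
        field_simp at e
        linear_combination (c x) * e) with ⟨-, h2⟩ | ⟨h1, h2⟩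
      · obtain ⟨x, hx0, hx1⟩ := h.exists_ne_zero_one
        exact h.th_ne_self hx0 hx1 (c.injective (RingHom.congr_fun h2 x).symm)
      · rcases hN with ⟨-, h2'⟩ | ⟨rfl, rfl⟩
        · exact h2' h2.symm
        · obtain ⟨x, hx0, hx1⟩ := h.exists_ne_zero_one
          exact h.th_ne_self hx0 hx1 (a.injective (RingHom.congr_fun h1 x).symm)
    · obtain ⟨hbc, hsq'⟩ := h.endo_mul_eq (α := a) (β := b) (γ := c) fun x => by
        rcases eq_or_ne x 0 with rfl | hx
        · simp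
        obtain ⟨t, ht⟩ := h.exists_lam hx
        have e := main x hx t ht
        simp only [lamV, Fin.reduceFinMk, Matrix.cons_val, ht, map_inv₀] at e
        have hcx : c x ≠ 0 := (map_ne_zero c).2 hx
        field_simp at e
        linear_combination e
      rcases hN with ⟨-, h1⟩ | ⟨rfl, rfl⟩
      · exact h1 hbc
      · exact hsq hsq'
  have h03 : ∀ z, β e0 e3 z = 0 := fun z => by
    rw [← Finset.univ_sum_single z, map_sum]
    refine Finset.sum_eq_zero fun k _ => ?_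
    rw [show (Pi.single k (z k) : Fin 4 → F) = z k • Pi.single k 1 by
      rw [← Pi.single_smul, smul_eq_mul, mul_one], map_smul, hk, smul_zero]
  have hue : ∀ p q, natM a (h.u p q) *ᵥ e0 = e0 := fun p q => by
    rw [h.natM_u]
    funext i
    fin_cases i <;> simp [he0, uT, uMat]
  have hcol : ∀ p q, ![b (fz m p q), b q, b p, 1] ∈ LinearMap.ker (β e0) := fun p q => by
    rw [LinearMap.mem_ker]
    refine LinearMap.ext fun z => ?_
    have e := hβ (h.u p q) e0 e3 (natM c (h.u p q)⁻¹ *ᵥ z)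
    simp only [hue, h03, Matrix.mulVec_mulVec, ← map_mul, mul_inv_cancel, map_one, Matrix.one_mulVec] at e
    have e3' : natM b (h.u p q) *ᵥ e3 = ![b (fz m p q), b q, b p, 1] := by
      rw [h.natM_u]
      funext i
      fin_cases i <;> simp [he3, uT, uMat]
    rw [e3'] at e
    exact e
  have h0all : ∀ y, β e0 y = 0 := fun y => by
    have hbase : e3 ∈ LinearMap.ker (β e0) := LinearMap.mem_ker.2 (LinearMap.ext h03)
    have h01 := hcol 0 1
    have h10 := hcol 1 0
    have h11 := hcol 1 1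
    have hS := LinearMap.ker (β e0)
    have e : y = (y 3 - y 1 - y 2 + (y 0 - y 1 - y 2)) • e3 + (y 1 + (y 0 - y 1 - y 2)) • ![b (fz m 0 1), b 1, b 0, 1]
        + (y 2 + (y 0 - y 1 - y 2)) • ![b (fz m 1 0), b 0, b 1, 1]
        + (y 0 - y 1 - y 2) • ![b (fz m 1 1), b 1, b 1, 1] := by
      funext i
      fin_cases i <;> simp [fz, he3, Matrix.vecHead, Matrix.vecTail, h.add_self] <;>
        grind [h.two_eq_zero]
    rw [← LinearMap.mem_ker, e]
    exact Submodule.add_mem _ (Submodule.add_mem _ (Submodule.add_mem _ (Submodule.smul_mem _ _ hbase)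
      (Submodule.smul_mem _ _ h01)) (Submodule.smul_mem _ _ h10)) (Submodule.smul_mem _ _ h11)
  refine LinearMap.ker_eq_top.1 (h.nat_eq_top a _ (fun g x hx => ?_) fun hbot => ?_)
  · rw [LinearMap.mem_ker] at hx ⊢
    refine LinearMap.ext fun y => LinearMap.ext fun z => ?_
    have e := hβ g x (natM b g⁻¹ *ᵥ y) (natM c g⁻¹ *ᵥ z)
    simp only [hx, LinearMap.zero_apply, Matrix.mulVec_mulVec, ← map_mul, mul_inv_cancel, map_one,
      Matrix.one_mulVec] at e
    exact e
  · have : e0 ∈ LinearMap.ker β := LinearMap.mem_ker.2 (LinearMap.ext fun y => by simp [h0all y])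
    rw [hbot, Submodule.mem_bot] at this
    simpa [he0] using congrFun this 0

theorem tri_natural {a b c : F →+* F}
    {β : (Fin 4 → F) →ₗ[F] (Fin 4 → F) →ₗ[F] (Fin 4 → F) →ₗ[F] F}
    (hβ : TriInv (fun (g : Cfsg.Sz F m) x => natM a g *ᵥ x) (fun g x => natM b g *ᵥ x) (fun g x => natM c g *ᵥ x) β) :
    β = 0 := by
  by_cases h1 : (a ≠ c ∧ b ≠ c) ∨ (a = b ∧ b = c)
  · exact h.tri_core h1 hβ
  have h2 : a ≠ b := fun e => h1 (by
    subst e
    by_cases e' : a = c
    · exact Or.inr ⟨rfl, e'⟩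
    · exact Or.inl ⟨e', e'⟩)
  by_cases hac : a = c
  · -- exchange the last two slots
    have := h.tri_core (a := a) (b := c) (c := b) (Or.inl ⟨h2, hac ▸ h2⟩)
      (β := LinearMap.lflip.toLinearMap.comp β) (fun g x y z => hβ g x z y)
    refine LinearMap.ext fun x => LinearMap.ext fun y => LinearMap.ext fun z => ?_
    exact LinearMap.congr_fun (LinearMap.congr_fun (LinearMap.congr_fun this x) z) y
  · have hbc : b = c := by_contra fun e => h1 (Or.inl ⟨hac, e⟩)
    have := h.tri_core (a := b) (b := c) (c := a) (Or.inl ⟨Ne.symm h2, hbc ▸ Ne.symm h2⟩)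
      (β := (LinearMap.lflip.toLinearMap.comp β.flip)) (fun g y z x => hβ g x y z)
    refine LinearMap.ext fun x => LinearMap.ext fun y => LinearMap.ext fun z => ?_
    exact LinearMap.congr_fun (LinearMap.congr_fun (LinearMap.congr_fun this y) z) x

universe u

/-- Invariant trilinear forms vanish. -/
theorem tri_zero (n : ℕ) : ∀ (V₁ V₂ V₃ : Type u) [AddCommGroup V₁] [Module F V₁] [Finite V₁]
    [AddCommGroup V₂] [Module F V₂] [Finite V₂] [AddCommGroup V₃] [Module F V₃] [Finite V₃]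
    (ρ₁ : Representation F (Cfsg.Sz F m) V₁) (ρ₂ : Representation F (Cfsg.Sz F m) V₂)
    (ρ₃ : Representation F (Cfsg.Sz F m) V₃), h.Five (fun g x => ρ₁ g x) → h.Five (fun g x => ρ₂ g x) →
    h.Five (fun g x => ρ₃ g x) → Nat.card V₁ + Nat.card V₂ + Nat.card V₃ ≤ n →
    ∀ β : V₁ →ₗ[F] V₂ →ₗ[F] V₃ →ₗ[F] F,
      TriInv (fun g x => ρ₁ g x) (fun g x => ρ₂ g x) (fun g x => ρ₃ g x) β → β = 0 := by
  induction n using Nat.strong_induction_on with
  | _ n ih =>
  intro V₁ V₂ V₃ _ _ _ _ _ _ _ _ _ ρ₁ ρ₂ ρ₃ f1 f2 f3 hn β hβ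
  -- a reducible first slot
  have step : ∀ (U₁ U₂ U₃ : Type u) [AddCommGroup U₁] [Module F U₁] [Finite U₁]
      [AddCommGroup U₂] [Module F U₂] [Finite U₂] [AddCommGroup U₃] [Module F U₃] [Finite U₃]
      (r₁ : Representation F (Cfsg.Sz F m) U₁) (r₂ : Representation F (Cfsg.Sz F m) U₂)
      (r₃ : Representation F (Cfsg.Sz F m) U₃), h.Five (fun g x => r₁ g x) → h.Five (fun g x => r₂ g x) →
      h.Five (fun g x => r₃ g x) → Nat.card U₁ + Nat.card U₂ + Nat.card U₃ ≤ n →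
      ∀ γ : U₁ →ₗ[F] U₂ →ₗ[F] U₃ →ₗ[F] F,
      TriInv (fun g x => r₁ g x) (fun g x => r₂ g x) (fun g x => r₃ g x) γ →
      ∀ S : Submodule F U₁, (∀ g, ∀ x ∈ S, r₁ g x ∈ S) → S ≠ ⊥ → S ≠ ⊤ → γ = 0 := by
    intro U₁ U₂ U₃ _ _ _ _ _ _ _ _ _ r₁ r₂ r₃ g1 g2 g3 hn' γ hγ S hS hb ht
    have hmul := Submodule.card_eq_card_quotient_mul_card S
    haveI : Nontrivial S := Submodule.nontrivial_iff_ne_bot.2 hb
    haveI : Nontrivial (U₁ ⧸ S) := Submodule.Quotient.nontrivial_iff.2 ht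
    haveI : Finite S := Finite.of_injective _ S.subtype_injective
    haveI : Finite (U₁ ⧸ S) := Finite.of_surjective _ S.mkQ_surjective
    have hS1 := Finite.one_lt_card (α := S)
    have hQ1 := Finite.one_lt_card (α := U₁ ⧸ S)
    have hlt : Nat.card S < Nat.card U₁ := by nlinarith
    have hlt' : Nat.card (U₁ ⧸ S) < Nat.card U₁ := by nlinarith
    have hs5 : h.Five fun g x => subRep r₁ S hS g x := h.five_sub g1 S hS
    have hq5 : h.Five fun g x => quotRep r₁ S hS g x := h.five_quot g1 S hS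
    have hsI : TriInv (fun g x => subRep r₁ S hS g x) (fun g x => r₂ g x) (fun g x => r₃ g x)
        (γ.comp S.subtype) := by
      intro g x y z
      simp only [LinearMap.comp_apply, Submodule.coe_subtype, subRep_apply]
      exact hγ g x y z
    have hle : S ≤ LinearMap.ker γ := fun x hx => LinearMap.mem_ker.2 (by
      have hlt'' : Nat.card S + Nat.card U₂ + Nat.card U₃ < n := by omega
      have := ih _ hlt'' S U₂ U₃ (subRep r₁ S hS) r₂ r₃ hs5 g2 g3 le_rfl (γ.comp S.subtype) hsI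
      exact LinearMap.congr_fun this ⟨x, hx⟩)
    obtain ⟨γq, hγq, hqI⟩ := exists_tri_quot r₁ r₂ r₃ S hS γ hle hγ
    have hlt'' : Nat.card (U₁ ⧸ S) + Nat.card U₂ + Nat.card U₃ < n := by omega
    have := ih _ hlt'' (U₁ ⧸ S) U₂ U₃ (quotRep r₁ S hS) r₂ r₃ hq5 g2 g3 le_rfl γq hqI
    rw [← hγq, this, LinearMap.zero_comp]
  rcases subsingleton_or_nontrivial V₁ with _ | _
  · exact LinearMap.ext fun x => by rw [Subsingleton.elim x 0, map_zero, map_zero]
  rcases subsingleton_or_nontrivial V₂ with _ | _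
  · exact LinearMap.ext fun x => LinearMap.ext fun y => by rw [Subsingleton.elim y 0, map_zero, map_zero]
  rcases subsingleton_or_nontrivial V₃ with _ | _
  · exact LinearMap.ext fun x => LinearMap.ext fun y => LinearMap.ext fun z => by
      rw [Subsingleton.elim z 0, map_zero, map_zero]
  by_cases h1 : ∀ S : Submodule F V₁, (∀ g, ∀ x ∈ S, ρ₁ g x ∈ S) → S ≠ ⊥ → S = ⊤
  swap
  · push Not at h1
    obtain ⟨S, hS, hb, ht⟩ := h1
    exact step V₁ V₂ V₃ ρ₁ ρ₂ ρ₃ f1 f2 f3 hn β hβ S hS hb ht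
  by_cases h2 : ∀ S : Submodule F V₂, (∀ g, ∀ x ∈ S, ρ₂ g x ∈ S) → S ≠ ⊥ → S = ⊤
  swap
  · push Not at h2
    obtain ⟨S, hS, hb, ht⟩ := h2
    have := step V₂ V₁ V₃ ρ₂ ρ₁ ρ₃ f2 f1 f3 (by omega) β.flip (fun g y x z => hβ g x y z) S hS hb ht
    rw [← β.flip_flip, this]
    rfl
  by_cases h3 : ∀ S : Submodule F V₃, (∀ g, ∀ x ∈ S, ρ₃ g x ∈ S) → S ≠ ⊥ → S = ⊤
  swap
  · push Not at h3
    obtain ⟨S, hS, hb, ht⟩ := h3
    have := step V₃ V₁ V₂ ρ₃ ρ₁ ρ₂ f3 f1 f2 (by omega) (LinearMap.lflip.toLinearMap.comp β).flip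
      (fun g z x y => hβ g x y z) S hS hb ht
    refine LinearMap.ext fun x => LinearMap.ext fun y => LinearMap.ext fun z => ?_
    exact LinearMap.congr_fun (LinearMap.congr_fun (LinearMap.congr_fun this z) x) y
  obtain ⟨a, e1, he1⟩ := h.irreducible_natural f1 h1
  obtain ⟨b, e2, he2⟩ := h.irreducible_natural f2 h2
  obtain ⟨c, e3, he3⟩ := h.irreducible_natural f3 h3
  have hs1 : ∀ g x, ρ₁ g (e1.symm x) = e1.symm (natM a g *ᵥ x) := fun g x =>
    e1.injective (by rw [he1, e1.apply_symm_apply, e1.apply_symm_apply])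
  have hs2 : ∀ g x, ρ₂ g (e2.symm x) = e2.symm (natM b g *ᵥ x) := fun g x =>
    e2.injective (by rw [he2, e2.apply_symm_apply, e2.apply_symm_apply])
  have hs3 : ∀ g x, ρ₃ g (e3.symm x) = e3.symm (natM c g *ᵥ x) := fun g x =>
    e3.injective (by rw [he3, e3.apply_symm_apply, e3.apply_symm_apply])
  let γ : (Fin 4 → F) →ₗ[F] (Fin 4 → F) →ₗ[F] (Fin 4 → F) →ₗ[F] F :=
    LinearMap.mk₂ F (fun x y => (β (e1.symm x) (e2.symm y)).comp e3.symm.toLinearMap)
      (fun _ _ _ => by ext; simp) (fun _ _ _ => by ext; simp) (fun _ _ _ => by ext; simp)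
      (fun _ _ _ => by ext; simp)
  have hγa : ∀ x y z, γ x y z = β (e1.symm x) (e2.symm y) (e3.symm z) := fun _ _ _ => rfl
  have := h.tri_natural (a := a) (b := b) (c := c) (β := γ) (fun g x y z => by
    simp only [hγa, ← hs1, ← hs2, ← hs3]
    exact hβ g _ _ _)
  refine LinearMap.ext fun x => LinearMap.ext fun y => LinearMap.ext fun z => ?_
  have e := hγa (e1 x) (e2 y) (e3 z)
  simpa [this] using e.symm

end Hyp

end CfsgLib.Suzuki
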